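import Cfsg.Agent.SUPres.Small.SuThreeTwo.Main
import Cfsg.Agent.SUPres.Small.SuThreeThree.Main
import Cfsg.Agent.SUPres.Small.SuThreeFive.Main
import Cfsg.Agent.SUPres.Small.SuFourTwo.Main
import Cfsg.Agent.SUPres.Small.SuFourThree.Main
import Cfsg.Agent.SUPres.Small.SuFiveTwo.Main

/-!
Short presentations of the small special unitary groups.
-/

set_option autoImplicit false

namespace Cfsg.Agent.SUPres.Small

/-- `SU_3(3)`: three generators and 5 relators. -/
theorem su3_three {F : Type*} [Field F] [Fintype F] (hF : Fintype.card F = 3 ^ 2) :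
    ∃ v : Fin 3 → Cfsg.SU 3 F 3, GKKL.HasPres v 5 :=
  SuThreeThree.main hF

/-- `SU_3(5)`: three generators and 8 relators. -/
theorem su3_five {F : Type*} [Field F] [Fintype F] (hF : Fintype.card F = 5 ^ 2) :
    ∃ v : Fin 3 → Cfsg.SU 3 F 5, GKKL.HasPres v 8 :=
  SuThreeFive.main hF

/-- `SU_4(2)`: three generators and 6 relators. -/
theorem su4_two {F : Type*} [Field F] [Fintype F] (hF : Fintype.card F = 2 ^ 2) :
    ∃ v : Fin 3 → Cfsg.SU 4 F 2, GKKL.HasPres v 6 :=
  SuFourTwo.main hF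

/-- `SU_4(3)`: three generators and 12 relators. -/
theorem su4_three {F : Type*} [Field F] [Fintype F] (hF : Fintype.card F = 3 ^ 2) :
    ∃ v : Fin 3 → Cfsg.SU 4 F 3, GKKL.HasPres v 12 :=
  SuFourThree.main hF

/-- `SU_5(2)`: three generators and 11 relators. -/
theorem su5_two {F : Type*} [Field F] [Fintype F] (hF : Fintype.card F = 2 ^ 2) :
    ∃ v : Fin 3 → Cfsg.SU 5 F 2, GKKL.HasPres v 11 :=
  SuFiveTwo.main hF

/-- `SU_3(2)` is generated by two elements. -/
theorem su3_two {F : Type*} [Field F] [Fintype F] (hF : Fintype.card F = 2 ^ 2) :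
    ∃ a b : Cfsg.SU 3 F 2, Subgroup.closure {a, b} = ⊤ :=
  SuThreeTwo.main hF

end Cfsg.Agent.SUPres.Small
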