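import Cfsg.Agent.SUPres.Final
import Cfsg.Agent.SUPres.SmallBlocks

/-!
The small blocks.
-/

set_option autoImplicit false

namespace Cfsg.Agent.SUPres

open Cfsg.Agent.Classical.U Cfsg.Agent.PhanSU
open GKKL (HasPres)

universe u

variable {F : Type u} [Field F] [Fintype F] {q : ℕ}

/-- The small blocks exist. -/
theorem blocks (hF : Fintype.card F = q ^ 2) : Blocks F q := by
  have hq := (sqField_of_fintype hF).one_lt
  refine ⟨fun h4 => ?_, fun h3 => ?_, fun h2 => ?_, fun h2 => ?_⟩
  · by_cases h5 : q = 5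
    · subst h5
      obtain ⟨v, hv⟩ := Small.su3_five hF
      exact ⟨v, hv.mono (by norm_num)⟩
    · exact su3_generic hF (by omega) (by omega) h5
  · obtain rfl | rfl : q = 2 ∨ q = 3 := by omega
    · obtain ⟨v, hv⟩ := Small.su4_two hF
      exact ⟨v, hv.mono (by norm_num)⟩
    · obtain ⟨v, hv⟩ := Small.su4_three hF
      exact ⟨v, hv.mono (by norm_num)⟩
  · subst h2
    obtain ⟨v, hv⟩ := Small.su5_two hF
    exact ⟨v, hv.mono (by norm_num)⟩
  · subst h2
    obtain ⟨a, b, hab⟩ := Small.su3_two hF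
    refine ⟨fun i => suEquiv 3 F 2 (![a, b] i), ?_⟩
    show Subgroup.closure (Set.range ((suEquiv 3 F 2).toMonoidHom ∘ ![a, b])) = ⊤
    rw [Set.range_comp, ← MonoidHom.map_closure,
      show Set.range ![a, b] = {a, b} by
        simp only [Matrix.range_cons, Matrix.range_empty, Set.union_empty, Set.singleton_union],
      hab, Subgroup.map_top_of_surjective _ (suEquiv 3 F 2).surjective]

/-- The three dimensional blocks over `F₉` and `F₂₅`. -/
theorem blocks_three (hF : Fintype.card F = q ^ 2) (h : q = 3 ∨ q = 5) :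
    ∃ v : Fin 3 → Cfsg.SU 3 F q, HasPres v 23 := by
  rcases h with rfl | rfl
  · obtain ⟨v, hv⟩ := Small.su3_three hF
    exact ⟨v, hv.mono (by norm_num)⟩
  · obtain ⟨v, hv⟩ := Small.su3_five hF
    exact ⟨v, hv.mono (by norm_num)⟩

end Cfsg.Agent.SUPres
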