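import Cfsg.Agent.PhanSU.Geometry
import Cfsg.Agent.GKKL.AltOn

/-!
Permutation matrices in the special unitary group of the standard form.
-/

set_option autoImplicit false

namespace Cfsg.Agent.SUPres

noncomputable section

open Equiv Cfsg.Agent.Classical.U Cfsg.Agent.PhanSU

universe u

variable {F : Type u} [Field F] {m q : ℕ}

/-- Permutation of coordinates. -/
def pm : Perm (Fin m) →* UG m F q where
  toFun σ := ⟨LinearEquiv.funCongrLeft F F σ.symm, fun u v => by
    simp only [LinearEquiv.funCongrLeft_apply, LinearMap.funLeft_apply, herm_def]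
    exact Equiv.sum_comp σ.symm (fun i => u i * v i ^ q)⟩
  map_one' := Subtype.ext (LinearEquiv.ext fun v => rfl)
  map_mul' σ τ := Subtype.ext (LinearEquiv.ext fun v => rfl)

theorem pm_apply (σ : Perm (Fin m)) (v : Fin m → F) (i : Fin m) :
    (pm (q := q) σ).1 v i = v (σ.symm i) := rfl

theorem det_pm (σ : Perm (Fin m)) :
    ((LinearEquiv.det (pm (F := F) (q := q) σ).1 : Fˣ) : F) = ((Perm.sign σ : ℤ) : F) := by
  rw [LinearEquiv.coe_det, ← LinearMap.det_toMatrix']
  have h : LinearMap.toMatrix' ((pm (F := F) (q := q) σ).1 : (Fin m → F) →ₗ[F] (Fin m → F))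
      = σ⁻¹.permMatrix F := by
    ext i j
    simp [LinearMap.toMatrix'_apply, pm_apply, PEquiv.toMatrix_apply, Pi.single_apply,
      Perm.inv_def, eq_comm]
  rw [h, Matrix.det_permutation, Perm.sign_inv]

/-- Even permutations of coordinates. -/
def pmU : alternatingGroup (Fin m) →* Sug m F q :=
  ((pm (F := F) (q := q)).comp (alternatingGroup (Fin m)).subtype).codRestrict _ fun σ => by
    rw [mem_SUG]
    apply Units.ext
    show ((LinearEquiv.det (pm (F := F) (q := q) σ.1).1 : Fˣ) : F) = 1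
    rw [det_pm, Perm.mem_alternatingGroup.1 σ.2]
    simp

theorem app_pmU (σ : alternatingGroup (Fin m)) (v : Fin m → F) (i : Fin m) :
    app (pmU (q := q) σ) v i = v (σ.1.symm i) := rfl

theorem app_pmU_dd (σ : alternatingGroup (Fin m)) (l : Fin m) :
    app (pmU (q := q) σ) (dd l : Fin m → F) = dd (σ.1 l) := by
  funext i
  rw [app_pmU]
  by_cases h : i = σ.1 l
  · subst h; simp [dd]
  · rw [dd_ne h, dd_ne]
    intro e
    exact h (by rw [← e]; simp)

theorem app_pmU_inv_dd (σ : alternatingGroup (Fin m)) (l : Fin m) :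
    app (pmU (q := q) σ)⁻¹ (dd l : Fin m → F) = dd (σ.1.symm l) := by
  rw [← map_inv, app_pmU_dd]
  rfl

theorem pmU_mem_fixT {σ : alternatingGroup (Fin m)} {T : Finset (Fin m)}
    (h : ∀ l, l ∉ T → σ.1 l = l) : (pmU σ : Sug m F q) ∈ fixT T := fun l hl => by
  rw [app_pmU_dd, h l hl]

theorem conj_mem_fixT (σ : alternatingGroup (Fin m)) {T : Finset (Fin m)} {g : Sug m F q}
    (hg : g ∈ fixT T) :
    pmU σ * g * (pmU σ)⁻¹ ∈ (fixT (T.image σ.1) : Subgroup (Sug m F q)) := fun l hl => by
  have h : σ.1.symm l ∉ T := fun hh => hl (Finset.mem_image.2 ⟨_, hh, by simp⟩)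
  rw [app_mul, app_mul, app_pmU_inv_dd, hg _ h, app_pmU_dd]
  simp

theorem conj_inv_mem_fixT (σ : alternatingGroup (Fin m)) {T : Finset (Fin m)} {g : Sug m F q}
    (hg : g ∈ fixT (T.image σ.1)) :
    (pmU σ)⁻¹ * g * pmU σ ∈ (fixT T : Subgroup (Sug m F q)) := by
  have := conj_mem_fixT σ⁻¹ hg
  rw [map_inv, inv_inv, Finset.image_image] at this
  simpa using this

theorem image_coe_mul (σ τ : alternatingGroup (Fin m)) (T : Finset (Fin m)) :
    T.image (σ * τ).1 = (T.image τ.1).image σ.1 := by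
  rw [Finset.image_image]
  rfl

theorem image_inv_eq {σ : alternatingGroup (Fin m)} {S T : Finset (Fin m)}
    (h : S.image σ.1 = T) : T.image (σ⁻¹).1 = S := by
  rw [← h, ← image_coe_mul, inv_mul_cancel]
  exact Finset.image_id

/-! Existence of even permutations. -/

theorem exists_perm_image {α : Type*} [Fintype α] [DecidableEq α] {S T : Finset α}
    (h : S.card = T.card) : ∃ σ : Perm α, S.image σ = T := by
  classical
  refine ⟨(S.equivOfCardEq h).extendSubtype, Finset.eq_of_subset_of_card_le ?_ ?_⟩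
  · intro x hx
    obtain ⟨y, hy, rfl⟩ := Finset.mem_image.1 hx
    exact Equiv.extendSubtype_mem _ y hy
  · rw [Finset.card_image_of_injective _ (Equiv.injective _), h]

theorem image_swap_eq {α : Type*} [DecidableEq α] {T : Finset α} {a b : α}
    (ha : a ∈ T) (hb : b ∈ T) : T.image (swap a b) = T := by
  ext x
  simp only [Finset.mem_image]
  constructor
  · rintro ⟨y, hy, rfl⟩
    rw [swap_apply_def]
    split_ifs <;> assumption
  · intro hx
    refine ⟨swap a b x, ?_, swap_apply_self a b x⟩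
    rw [swap_apply_def]
    split_ifs <;> assumption

/-- A permutation becomes even after a transposition inside a set. -/
theorem exists_even_of_perm (σ : Perm (Fin m)) {T : Finset (Fin m)} (hT : 1 < T.card) :
    ∃ τ : alternatingGroup (Fin m), (∀ l, l ∉ T → τ.1 l = σ l) ∧ T.image τ.1 = T.image σ := by
  classical
  rcases Int.units_eq_one_or (Perm.sign σ) with h | h
  · exact ⟨⟨σ, Perm.mem_alternatingGroup.2 h⟩, fun l _ => rfl, rfl⟩
  obtain ⟨a, ha, b, hb, hab⟩ := Finset.one_lt_card.1 hT
  refine ⟨⟨σ * swap a b, Perm.mem_alternatingGroup.2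
    (by rw [map_mul, h, Perm.sign_swap hab]; rfl)⟩, fun l hl => ?_, ?_⟩
  · show σ (swap a b l) = σ l
    rw [swap_apply_of_ne_of_ne (fun e : l = a => hl (e.symm ▸ ha))
      (fun e : l = b => hl (e.symm ▸ hb))]
  · show T.image (σ * swap a b) = T.image σ
    rw [Perm.coe_mul, ← Finset.image_image, image_swap_eq ha hb]

theorem exists_even_image {S T : Finset (Fin m)} (h : S.card = T.card) (hS : 1 < S.card) :
    ∃ τ : alternatingGroup (Fin m), S.image τ.1 = T := by
  obtain ⟨σ, hσ⟩ := exists_perm_image h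
  obtain ⟨τ, -, hτ⟩ := exists_even_of_perm σ hS
  exact ⟨τ, hτ.trans hσ⟩

/-- Two disjoint pairs of sets of equal sizes. -/
theorem exists_even_image_two {S S' T T' : Finset (Fin m)} (hS : Disjoint S S')
    (hT : Disjoint T T') (h : S.card = T.card) (h' : S'.card = T'.card) (h1 : 1 < S.card) :
    ∃ τ : alternatingGroup (Fin m), S.image τ.1 = T ∧ S'.image τ.1 = T' := by
  classical
  obtain ⟨σ, hσ⟩ := exists_perm_image h
  have hd : ∀ l ∈ S'.image σ, l ∉ T := fun l hl hl' => by
    obtain ⟨y, hy, rfl⟩ := Finset.mem_image.1 hl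
    rw [← hσ] at hl'
    obtain ⟨z, hz, e⟩ := Finset.mem_image.1 hl'
    exact Finset.disjoint_left.1 hS (σ.injective e ▸ hz) hy
  obtain ⟨ρ, hρ⟩ := exists_perm_image (α := {l // l ∉ T}) (S := (S'.image σ).subtype _)
    (T := T'.subtype _) (by
      rw [Finset.card_subtype, Finset.card_subtype, Finset.filter_true_of_mem hd,
        Finset.filter_true_of_mem fun l hl => Finset.disjoint_right.1 hT hl,
        Finset.card_image_of_injective _ σ.injective, h'])
  obtain ⟨τ, hτo, hτi⟩ := exists_even_of_perm (Perm.ofSubtype ρ * σ) h1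
  refine ⟨τ, ?_, ?_⟩
  · rw [hτi, Perm.coe_mul, ← Finset.image_image, hσ]
    refine (Finset.image_congr fun l hl => ?_).trans Finset.image_id
    exact Perm.ofSubtype_apply_of_not_mem ρ (fun hh => hh hl)
  · rw [Finset.image_congr (g := Perm.ofSubtype ρ ∘ σ) fun l hl =>
      hτo l (Finset.disjoint_right.1 hS hl), ← Finset.image_image]
    ext x
    constructor
    · intro hx
      obtain ⟨y, hy, rfl⟩ := Finset.mem_image.1 hx
      rw [Perm.ofSubtype_apply_of_mem ρ (hd y hy)]
      have hy' : (⟨y, hd y hy⟩ : {l // l ∉ T}) ∈ (S'.image σ).subtype _ := Finset.mem_subtype.2 hy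
      have := Finset.mem_image_of_mem ρ hy'
      rw [hρ] at this
      exact Finset.mem_subtype.1 this
    · intro hx
      have hxT := Finset.disjoint_right.1 hT hx
      have : (⟨x, hxT⟩ : {l // l ∉ T}) ∈ ((S'.image σ).subtype _).image ρ := by
        rw [hρ]; exact Finset.mem_subtype.2 hx
      obtain ⟨y, hy, e⟩ := Finset.mem_image.1 this
      refine Finset.mem_image.2 ⟨y.1, Finset.mem_subtype.1 hy, ?_⟩
      rw [Perm.ofSubtype_apply_of_mem ρ y.2]
      exact congrArg Subtype.val e

/-- The subgroup of even permutations fixing the points outside a set. -/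
def altIn (T : Finset (Fin m)) : Subgroup (alternatingGroup (Fin m)) where
  carrier := {σ | ∀ l, l ∉ T → σ.1 l = l}
  one_mem' _ _ := rfl
  mul_mem' {a b} ha hb l hl := by
    rw [Subgroup.coe_mul, Perm.mul_apply, hb l hl, ha l hl]
  inv_mem' {a} ha l hl := Perm.inv_eq_iff_eq.2 (ha l hl).symm

theorem exists_altIn_image {S T B : Finset (Fin m)} (h : S.card = T.card) (hS : 1 < S.card)
    (hSB : S ⊆ B) (hTB : T ⊆ B) : ∃ τ ∈ altIn B, S.image τ.1 = T := by
  classical
  obtain ⟨ρ, hρ⟩ := exists_perm_image (α := {l // l ∈ B}) (S := S.subtype _) (T := T.subtype _)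
    (by rw [Finset.card_subtype, Finset.card_subtype, Finset.filter_true_of_mem hSB,
      Finset.filter_true_of_mem hTB, h])
  obtain ⟨τ, hτo, hτi⟩ := exists_even_of_perm (Perm.ofSubtype ρ) hS
  refine ⟨τ, fun l hl => ?_, ?_⟩
  · rw [hτo l fun hh => hl (hSB hh), Perm.ofSubtype_apply_of_not_mem ρ hl]
  · rw [hτi]
    ext x
    constructor
    · intro hx
      obtain ⟨y, hy, rfl⟩ := Finset.mem_image.1 hx
      rw [Perm.ofSubtype_apply_of_mem ρ (hSB hy)]
      have hy' : (⟨y, hSB hy⟩ : {l // l ∈ B}) ∈ S.subtype _ := Finset.mem_subtype.2 hy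
      have := Finset.mem_image_of_mem ρ hy'
      rw [hρ] at this
      exact Finset.mem_subtype.1 this
    · intro hx
      have : (⟨x, hTB hx⟩ : {l // l ∈ B}) ∈ (S.subtype _).image ρ := by
        rw [hρ]; exact Finset.mem_subtype.2 hx
      obtain ⟨y, hy, e⟩ := Finset.mem_image.1 this
      refine Finset.mem_image.2 ⟨y.1, Finset.mem_subtype.1 hy, ?_⟩
      rw [Perm.ofSubtype_apply_of_mem ρ y.2]
      exact congrArg Subtype.val e

end

end Cfsg.Agent.SUPres
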