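import Cfsg.Agent.PhanSU.Amalgam
import Cfsg.Agent.SUPres.Perm

/-!
Small unitary groups as coordinate subgroups; generators for stabilisers of sets in the
alternating group.
-/

set_option autoImplicit false

namespace Cfsg.Agent.SUPres

open Equiv Cfsg.Agent.Classical.U Cfsg.Agent.PhanSU

universe u

noncomputable section

variable {F : Type u} [Field F] {q : ℕ}

/-- Adding a fixed first coordinate. -/
def upOne (m : ℕ) : Sug m F q →* Sug (m + 1) F q :=
  ((tailLift m F q).comp (SUG m F q).subtype).codRestrict _ fun g => tailLift_mem_SUG.2 g.2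

theorem exists_emb_add (hF : SqField F q) (b d : ℕ) :
    ∃ e : Sug b F q →* Sug (b + d) F q, Function.Injective e ∧
      e.range = fixT (Finset.univ.filter fun l : Fin (b + d) => d ≤ (l : ℕ)) := by
  classical
  induction d with
  | zero =>
    refine ⟨MonoidHom.id _, fun _ _ h => h, ?_⟩
    exact le_antisymm (fun g _ l hl => absurd (by simp) hl) fun g _ => ⟨g, rfl⟩
  | succ d ih =>
    obtain ⟨e, hinj, hrange⟩ := ih
    refine ⟨(upOne (b + d)).comp e, fun x y h => hinj (Subtype.ext (tailLift_injective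
      (congrArg Subtype.val h))), ?_⟩
    apply le_antisymm
    · rintro _ ⟨x, rfl⟩ l hl
      have hl' : (l : ℕ) < d + 1 := by simpa using hl
      refine Fin.cases (fun _ => ?_) (fun j hl' => ?_) l hl'
      · funext i
        refine Fin.cases ?_ (fun k => ?_) i
        · show (tailLift (b + d) F q (e x).1).1 (dd 0) 0 = (dd 0 : Fin (b + d + 1) → F) 0
          rw [tailLift_apply, Fin.cons_zero]
        · show (tailLift (b + d) F q (e x).1).1 (dd 0) k.succ = (dd 0 : Fin (b + d + 1) → F) k.succ
          rw [tailLift_apply, Fin.cons_succ, show Fin.tail (dd 0 : Fin (b + d + 1) → F) = 0 from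
            funext fun i => by simp [Fin.tail, dd], map_zero]
          simp [dd]
      · have hj : app (e x) (dd j : Fin (b + d) → F) = dd j := by
          have : e x ∈ e.range := ⟨x, rfl⟩
          rw [hrange] at this
          exact this j (by simp at hl' ⊢; omega)
        show (tailLift (b + d) F q (e x).1).1 (dd j.succ) = dd j.succ
        rw [tailLift_apply, show Fin.tail (dd j.succ : Fin (b + d + 1) → F) = dd j from
          funext fun i => by simp [Fin.tail, dd, Pi.single_apply],
          show (e x).1.1 (dd j) = dd j from hj]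
        funext i
        refine Fin.cases ?_ (fun k => ?_) i <;> simp [dd, Pi.single_apply]
    · intro g hg
      have h0 : g.1.1 (Pi.single 0 1) = Pi.single 0 1 := hg 0 (by simp)
      obtain ⟨a, ha⟩ := exists_tailLift hF g.1 h0
      have haS : a ∈ SUG (b + d) F q := tailLift_mem_SUG.1 (ha ▸ g.2)
      have hm : (⟨a, haS⟩ : Sug (b + d) F q) ∈ e.range := by
        rw [hrange]
        intro j hj
        have h1 : app g (dd j.succ : Fin (b + d + 1) → F) = dd j.succ :=
          hg j.succ (by simp at hj ⊢; omega)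
        funext i
        have h2 := congrFun h1 i.succ
        rw [show app g (dd j.succ : Fin (b + d + 1) → F) = g.1.1 (dd j.succ) from rfl, ← ha,
          tailLift_apply, Fin.cons_succ, show Fin.tail (dd j.succ : Fin (b + d + 1) → F) = dd j from
            funext fun i => by simp [Fin.tail, dd, Pi.single_apply]] at h2
        refine h2.trans ?_
        simp [dd, Pi.single_apply]
      obtain ⟨x, hx⟩ := hm
      exact ⟨x, Subtype.ext (by
        show tailLift (b + d) F q (e x).1 = g.1
        rw [hx]; exact ha)⟩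

theorem exists_emb (hF : SqField F q) {b d n : ℕ} (h : b + d = n + 1) :
    ∃ e : Sug b F q →* Sug (n + 1) F q, Function.Injective e ∧ e.range = fixT (tailT n d) := by
  have key : ∀ m, b + d = m → ∃ e : Sug b F q →* Sug m F q, Function.Injective e ∧
      e.range = fixT (Finset.univ.filter fun l : Fin m => d ≤ (l : ℕ)) := by
    rintro m rfl
    exact exists_emb_add hF b d
  obtain ⟨e, h1, h2⟩ := key (n + 1) h
  exact ⟨e, h1, h2.trans (by congr 1)⟩

theorem perm_fin_two : ∀ σ : Perm (Fin 2), σ = 1 ∨ σ = swap 0 1 := by decide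

/-- The two generators of a stabiliser. -/
theorem exists_stab {n : ℕ} {T : Finset (Fin (n + 1))} (hT : 1 < T.card)
    (hc : 2 ≤ n + 1 - T.card) :
    ∃ sg : List (alternatingGroup (Fin (n + 1))),
      sg.length ≤ 2 ∧ (T.card + 2 = n + 1 → sg.length ≤ 1) ∧ (∀ s ∈ sg, T.image s.1 = T) ∧
      ∀ τ : alternatingGroup (Fin (n + 1)), T.image τ.1 = T →
        τ ∈ Subgroup.closure {s | s ∈ sg} ⊔ altIn T := by
  classical
  obtain ⟨m, hm⟩ : ∃ m, n + 1 - T.card = m + 2 := ⟨_, (Nat.sub_add_cancel hc).symm⟩
  let p : Fin (n + 1) → Prop := fun l => l ∉ T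
  have hcard : Fintype.card {l // p l} = m + 2 := by
    rw [Fintype.card_subtype, show (Finset.univ.filter p) = Tᶜ by ext; simp [p],
      Finset.card_compl, Fintype.card_fin, hm]
  let ι : {l // p l} ≃ Fin (m + 2) := Fintype.equivFinOfCardEq hcard
  obtain ⟨a, ha, b, hb, hab⟩ := Finset.one_lt_card.1 hT
  let ext0 : Perm (Fin (m + 2)) →* Perm (Fin (n + 1)) :=
    (Perm.ofSubtype (p := p)).comp ι.symm.permCongrHom.toMonoidHom
  have hsign : ∀ σ, Perm.sign (ext0 σ) = Perm.sign σ := fun σ => by
    show Perm.sign (Perm.ofSubtype (ι.symm.permCongr σ)) = _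
    rw [Perm.sign_ofSubtype, Perm.sign_permCongr]
  have hfixT : ∀ σ, ∀ l ∈ T, ext0 σ l = l := fun σ l hl =>
    Perm.ofSubtype_apply_of_not_mem _ (fun h => h hl)
  let fl : Perm (Fin (m + 2)) → Perm (Fin (n + 1)) := fun σ =>
    if Perm.sign σ = 1 then 1 else swap a b
  have hflout : ∀ σ, ∀ l, l ∉ T → fl σ l = l := fun σ l hl => by
    dsimp only [fl]
    split_ifs
    · rfl
    · exact swap_apply_of_ne_of_ne (fun e : l = a => hl (e ▸ ha)) (fun e : l = b => hl (e ▸ hb))
  have hcomm : ∀ σ τ, Commute (ext0 σ) (fl τ) := fun σ τ => Perm.Disjoint.commute fun l => by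
    by_cases hl : l ∈ T
    · exact Or.inl (hfixT σ l hl)
    · exact Or.inr (hflout τ l hl)
  have hflmul : ∀ σ τ, fl (σ * τ) = fl σ * fl τ := fun σ τ => by
    dsimp only [fl]
    rw [map_mul]
    rcases Int.units_eq_one_or (Perm.sign σ) with h | h <;>
      rcases Int.units_eq_one_or (Perm.sign τ) with h' | h' <;> rw [h, h'] <;> simp
  let ψ : Perm (Fin (m + 2)) →* alternatingGroup (Fin (n + 1)) :=
    { toFun := fun σ => ⟨ext0 σ * fl σ, Perm.mem_alternatingGroup.2 (by
        rw [map_mul, hsign]
        dsimp only [fl]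
        rcases Int.units_eq_one_or (Perm.sign σ) with h | h <;> rw [h]
        · simp
        · simp [Perm.sign_swap hab])⟩
      map_one' := Subtype.ext (by simp [fl])
      map_mul' := fun σ τ => Subtype.ext (by
        show ext0 (σ * τ) * fl (σ * τ) = ext0 σ * fl σ * (ext0 τ * fl τ)
        rw [map_mul, hflmul, (hcomm τ σ).mul_mul_mul_comm]) }
  have hψ : ∀ σ, T.image (ψ σ).1 = T := fun σ => by
    show T.image (ext0 σ * fl σ) = T
    rw [Perm.coe_mul, ← Finset.image_image, show T.image (fl σ) = T by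
      dsimp only [fl]; split_ifs
      · simp
      · exact image_swap_eq ha hb]
    exact (Finset.image_congr fun l hl => hfixT σ l hl).trans Finset.image_id
  have hψout : ∀ σ l (hl : p l), (ψ σ).1 l = (ι.symm (σ (ι ⟨l, hl⟩))).1 := fun σ l hl => by
    show (ext0 σ * fl σ) l = _
    rw [Perm.mul_apply, hflout σ l hl]
    show Perm.ofSubtype (ι.symm.permCongr σ) l = _
    rw [Perm.ofSubtype_apply_of_mem _ hl, Equiv.permCongr_apply]
    rfl
  obtain ⟨g0, hg0, hg1, hg⟩ : ∃ g0 : List (Perm (Fin (m + 2))), g0.length ≤ 2 ∧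
      (m = 0 → g0.length ≤ 1) ∧ Subgroup.closure {s | s ∈ g0} = ⊤ := by
    by_cases h0 : m = 0
    · subst h0
      refine ⟨[swap 0 1], by simp, fun _ => by simp, ?_⟩
      rw [eq_top_iff]
      intro σ _
      have : σ = 1 ∨ σ = swap 0 1 := perm_fin_two σ
      rcases this with rfl | rfl
      · exact one_mem _
      · exact Subgroup.subset_closure (by simp)
    · refine ⟨[finRotate (m + 2), swap 0 (finRotate (m + 2) 0)], by simp, fun h => absurd h h0, ?_⟩
      rw [← Perm.closure_cycle_adjacent_swap isCycle_finRotate support_finRotate 0]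
      congr 1
      ext s
      simp
  refine ⟨g0.map ψ, by simpa using hg0, fun h => by simpa using hg1 (by omega), fun s hs => ?_,
    fun τ hτ => ?_⟩
  · obtain ⟨σ, -, rfl⟩ := List.mem_map.1 hs
    exact hψ σ
  · have hiff : ∀ l, p (τ.1 l) ↔ p l := fun l => by
      show τ.1 l ∉ T ↔ l ∉ T
      rw [not_iff_not]
      conv_lhs => rw [← hτ]
      exact τ.1.injective.mem_finset_image
    let σ : Perm (Fin (m + 2)) := ι.permCongr (τ.1.subtypePerm hiff)
    have hagree : ∀ l, l ∉ T → (ψ σ).1 l = τ.1 l := fun l hl => by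
      rw [hψout σ l hl]
      simp [σ]
    have h1 : ψ σ ∈ Subgroup.closure {s | s ∈ g0.map ψ} := by
      have : ψ σ ∈ (Subgroup.closure {s | s ∈ g0}).map ψ :=
        ⟨σ, hg.symm ▸ Subgroup.mem_top σ, rfl⟩
      rw [MonoidHom.map_closure] at this
      refine Subgroup.closure_mono ?_ this
      rintro _ ⟨x, hx, rfl⟩
      exact List.mem_map.2 ⟨x, hx, rfl⟩
    have h2 : (ψ σ)⁻¹ * τ ∈ altIn T := fun l hl => by
      show ((ψ σ).1⁻¹ * τ.1) l = l
      rw [Perm.mul_apply, ← hagree l hl]
      exact (ψ σ).1.symm_apply_apply l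
    have := mul_mem (Subgroup.mem_sup_left (T := altIn T) h1) (Subgroup.mem_sup_right h2)
    simpa using this

end

end Cfsg.Agent.SUPres
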