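import Cfsg.Agent.SUPres.Main
import Cfsg.Agent.S2412

/-!
The counts for `SU` and `PSU`, given the small blocks.
-/

set_option autoImplicit false

namespace Cfsg.Agent.SUPres

open Cfsg.Agent.Classical.U Cfsg.Agent.PhanSU
open GKKL (HasPres)

universe u

variable {F : Type u} [Field F] [Fintype F] {q : ℕ}

theorem six_gen (hF : Fintype.card F = q ^ 2) (B : Blocks F q) (n : ℕ) (hn : 4 ≤ n) :
    (∃ rels : Finset (FreeGroup (Fin 6)), rels.card ≤ 39 ∧ Nonempty (PresentedGroup (↑rels : Set (FreeGroup (Fin 6))) ≃* ↥(Cfsg.SU n F q))) ∧ (∃ rels : Finset (FreeGroup (Fin 6)), rels.card ≤ 40 ∧ Nonempty (PresentedGroup (↑rels : Set (FreeGroup (Fin 6))) ≃* Cfsg.PSU n F q)) ∧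
    (∃ rels : Finset (FreeGroup (Fin 6)), rels.card ≤ 35 ∧ Nonempty (PresentedGroup (↑rels : Set (FreeGroup (Fin 6))) ≃* ↥(Cfsg.SU 4 F q))) ∧ (∃ rels : Finset (FreeGroup (Fin 6)), rels.card ≤ 35 ∧ Nonempty (PresentedGroup (↑rels : Set (FreeGroup (Fin 6))) ≃* ↥(Cfsg.SU 5 F q))) ∧ (∃ rels : Finset (FreeGroup (Fin 6)), rels.card ≤ 36 ∧ Nonempty (PresentedGroup (↑rels : Set (FreeGroup (Fin 6))) ≃* Cfsg.PSU 4 F q)) := by
  have hS := sqField_of_fintype hF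
  obtain ⟨⟨v, hv⟩, w, hw⟩ := su_main hS B n hn
  obtain ⟨⟨v4, hv4⟩, w4, hw4⟩ := su_main hS B 4 le_rfl
  obtain ⟨⟨v5, hv5⟩, -⟩ := su_main hS B 5 (by norm_num)
  exact ⟨SpPres.Final.conv (hv.mono (by split_ifs <;> omega)),
    SpPres.Final.conv (hw.mono (by split_ifs <;> omega)),
    SpPres.Final.conv (hv4.mono (by norm_num)), SpPres.Final.conv (hv5.mono (by norm_num)),
    SpPres.Final.conv (hw4.mono (by norm_num))⟩

theorem two_gen_eighty (hF : Fintype.card F = q ^ 2) (B : Blocks F q)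
    (b3 : q = 3 ∨ q = 5 → ∃ v : Fin 3 → Cfsg.SU 3 F q, HasPres v 23)
    (n : ℕ) (hn : 3 ≤ n) (h32 : ¬ (n = 3 ∧ q = 2)) :
    ∃ rels : Finset (FreeGroup (Fin 2)), rels.card ≤ 80 ∧
      Nonempty (PresentedGroup (↑rels : Set (FreeGroup (Fin 2))) ≃* Cfsg.PSU n F q) := by
  have hS := sqField_of_fintype hF
  have hq : IsPrimePow q := by
    obtain ⟨p, k, hp, -, rfl⟩ := hS.exists_char
    refine (isPrimePow_nat_iff _).2 ⟨p, k, hp, Nat.pos_of_ne_zero ?_, rfl⟩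
    rintro rfl
    exact absurd hS.one_lt (by simp)
  obtain ⟨a, b, hab⟩ := S2412.result hq hF n hn (fun h h' => h32 ⟨h, h'⟩)
  obtain ⟨l, r, w, hr, hw⟩ : ∃ (l r : ℕ) (w : Fin l → Cfsg.PSU n F q), r ≤ 78 ∧ HasPres w r := by
    by_cases h4 : 4 ≤ n
    · obtain ⟨-, w, hw⟩ := su_main hS B n h4
      exact ⟨6, _, w, by split_ifs <;> omega, hw⟩
    · obtain rfl : n = 3 := by omega
      obtain ⟨v, hv⟩ : ∃ v : Fin 3 → Cfsg.SU 3 F q, HasPres v 23 := by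
        by_cases h : q = 3 ∨ q = 5
        · exact b3 h
        · exact su3_generic hF (fun e => h32 ⟨rfl, e⟩) (fun e => h (Or.inl e)) (fun e => h (Or.inr e))
      obtain ⟨w, hw⟩ := psu_of_su hS (by norm_num) hv
      exact ⟨3, _, w, by norm_num, hw⟩
  obtain ⟨w2, hw2⟩ := SpPres.Final.two_gen hw a b hab
  exact SpPres.Final.conv (hw2.mono (by omega))

end Cfsg.Agent.SUPres
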