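import Cfsg.Agent.SUPres.Seed
import Cfsg.Agent.SUPres.Emb
import Cfsg.Agent.SpPres.Pres

/-!
A presentation of the unitary group from one of an alternating group and one of a small block.
-/

set_option autoImplicit false

open scoped Classical

namespace Cfsg.Agent.SUPres

open Equiv Cfsg.Agent.Classical.U Cfsg.Agent.PhanSU
open GKKL (HasPres altOn cyc3)

universe u

noncomputable section

variable {F : Type u} [Field F] {q n d r b : ℕ}

theorem altIn_le_closure (hb : b + d = n + 1) (hb2 : 2 ≤ b)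
    {X : Subgroup (alternatingGroup (Fin (n + 1)))}
    (h : ∀ t : Fin (n + 1), d ≤ (t : ℕ) → (t : ℕ) + 2 ≤ n →
      ∀ hh : cyc3 t (⟨n, by omega⟩ : Fin (n + 1)) ⟨n - 1, by omega⟩ ∈ alternatingGroup (Fin (n + 1)),
        (⟨cyc3 t ⟨n, by omega⟩ ⟨n - 1, by omega⟩, hh⟩ : alternatingGroup (Fin (n + 1))) ∈ X) :
    altIn (tailT n d) ≤ X := by
  intro σ hσ
  have hle : altOn {l : Fin (n + 1) | d ≤ (l : ℕ)} ≤ X.map (alternatingGroup (Fin (n + 1))).subtype := by
    refine GKKL.altOn_le_of_cyc3 (c := (⟨n, by omega⟩ : Fin (n + 1))) (e := ⟨n - 1, by omega⟩)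
      (Fin.ne_of_val_ne (by simp only; omega)) fun t ht htc hte => ?_
    have h1 := Fin.val_ne_of_ne htc
    have h2 := Fin.val_ne_of_ne hte
    simp only at h1 h2
    have hh : cyc3 t (⟨n, by omega⟩ : Fin (n + 1)) ⟨n - 1, by omega⟩ ∈ alternatingGroup (Fin (n + 1)) :=
      Perm.mem_alternatingGroup.2 (GKKL.cyc3_mem (T := Set.univ) htc
        (Fin.ne_of_val_ne (by simp only; omega)) trivial trivial trivial).1
    exact ⟨⟨_, hh⟩, h t ht (by omega) hh, rfl⟩
  obtain ⟨τ, hτ, e⟩ := hle (show σ.1 ∈ altOn {l : Fin (n + 1) | d ≤ (l : ℕ)} from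
    ⟨Perm.mem_alternatingGroup.1 σ.2, fun l hl => hσ l (fun h => hl (mem_tailT.1 h))⟩)
  obtain rfl : τ = σ := Subtype.ext e
  exact hτ

/-- The presentation on the generators of the two pieces. -/
theorem pres_of_blocks [Finite F] (hF : SqField F q) (hbd : b + d = n + 1) (hb2 : 2 ≤ b)
    (hr2 : 2 ≤ r) (hdr : d + r ≤ n + 1) (hn : r + 2 ≤ n + 1) {la ra kb rb : ℕ}
    {vA : Fin la → alternatingGroup (Fin (n + 1))} (hA : HasPres vA ra)
    {vB : Fin kb → Sug b F q} (hB : HasPres vB rb)
    (g : Fin 2 → Sug r F q) (hg : Subgroup.closure (Set.range g) = ⊤)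
    (τ0 : alternatingGroup (Fin (n + 1))) (hd0 : Disjoint (lastT n r) ((lastT n r).image τ0.1))
    (pairs : List (Fin 2 × Fin 2))
    (hpairs : (τ0 ∈ altIn (tailT n d) ∧ (lastT n r).image τ0.1 ⊆ tailT n d) ∨
      ∀ i j, (i, j) ∈ pairs ∨ ((j, i) ∈ pairs ∧ τ0 * τ0 = 1))
    (faith : ∀ (W : Type u) [Group W] (D : Seed F q n d r W), Function.Bijective D.π) :
    ∃ v : Fin (la + kb) → Sug (n + 1) F q, HasPres v
      (ra + rb + ((b - 2) + 2 * (if r + 2 = n + 1 then 1 else 2) + pairs.length)) := by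
  obtain ⟨e, hinj, hrange⟩ := exists_emb hF hbd
  obtain ⟨e2, -, hrange2⟩ := exists_emb (n := n) hF (b := r) (d := n + 1 - r) (by omega)
  have hsub : lastT n r ⊆ tailT n d := tailT_antitone (by omega)
  have hcardT : (lastT n r).card = r := card_lastT (by omega) (by omega)
  obtain ⟨sg, hsg2, hsg1, hsgT, hsgen⟩ := exists_stab (T := lastT n r) (by omega) (by omega)
  have hpre : ∀ i, ∃ x : Sug b F q, e x = e2 (g i) := fun i => by
    have : e2 (g i) ∈ fixT (tailT n d) :=
      fixT_mono hsub (hrange2 ▸ (⟨g i, rfl⟩ : e2 (g i) ∈ e2.range))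
    rw [← hrange] at this
    exact this
  choose G hG using hpre
  have hGfix : ∀ i, e (G i) ∈ fixT (lastT n r) := fun i => by
    have : e2 (g i) ∈ e2.range := ⟨g i, rfl⟩
    rw [hG]
    rwa [hrange2] at this
  have hGgen : ∀ x : Sug b F q, e x ∈ fixT (lastT n r) → x ∈ Subgroup.closure (Set.range G) := by
    intro x hx
    have : e x ∈ (Subgroup.closure (Set.range G)).map e := by
      rw [MonoidHom.map_closure, ← Set.range_comp, show e ∘ G = e2 ∘ g from funext hG,
        Set.range_comp, ← MonoidHom.map_closure, hg, ← MonoidHom.range_eq_map, hrange2]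
      exact hx
    obtain ⟨y, hy, hye⟩ := this
    exact hinj hye ▸ hy
  let A := alternatingGroup (Fin (n + 1))
  let B := Sug b F q
  let inA : A →* Monoid.Coprod A B := Monoid.Coprod.inl
  let inB : B →* Monoid.Coprod A B := Monoid.Coprod.inr
  let pre : Sug (n + 1) F q → B := Function.invFun e
  have hprespec : ∀ y ∈ (fixT (tailT n d) : Subgroup (Sug (n + 1) F q)), e (pre y) = y := fun y hy => by
    rw [← hrange] at hy
    exact Function.invFun_eq hy
  let cyc : Fin (b - 2) → A := fun i =>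
    ⟨cyc3 ⟨d + i, by omega⟩ ⟨n, by omega⟩ ⟨n - 1, by omega⟩, Perm.mem_alternatingGroup.2
      (GKKL.cyc3_mem (T := Set.univ) (Fin.ne_of_val_ne (by simp only; omega))
        (Fin.ne_of_val_ne (by simp only; omega)) trivial trivial trivial).1⟩
  have hcyc : ∀ i, cyc i ∈ altIn (tailT n d) := fun i l hl => by
    rw [mem_tailT] at hl
    have h1 : l ≠ (⟨d + i, by omega⟩ : Fin (n + 1)) := Fin.ne_of_val_ne (by simp only; omega)
    have h2 : l ≠ (⟨n, by omega⟩ : Fin (n + 1)) := Fin.ne_of_val_ne (by simp only; omega)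
    have h3 : l ≠ (⟨n - 1, by omega⟩ : Fin (n + 1)) := Fin.ne_of_val_ne (by simp only; omega)
    show (GKKL.cyc3 _ _ _) l = l
    rw [GKKL.cyc3, Perm.mul_apply, swap_apply_of_ne_of_ne h2 h3, swap_apply_of_ne_of_ne h1 h2]
  let eq' : Monoid.Coprod A B → Monoid.Coprod A B → Monoid.Coprod A B := fun x y => x * y⁻¹
  let RA := List.ofFn fun i => eq' (inA (cyc i)) (inB (pre (pmU (cyc i))))
  let RS := sg.flatMap fun s => List.ofFn fun i : Fin 2 =>
    eq' (inA s * inB (G i) * (inA s)⁻¹) (inB (pre (pmU s * e (G i) * (pmU s)⁻¹)))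
  let RC := pairs.map fun p => eq' (inB (G p.1) * (inA τ0 * inB (G p.2) * (inA τ0)⁻¹))
    ((inA τ0 * inB (G p.2) * (inA τ0)⁻¹) * inB (G p.1))
  let R := RA ++ RS ++ RC
  let π : Monoid.Coprod A B →* Sug (n + 1) F q := Monoid.Coprod.lift pmU e
  have hπA : ∀ a, π (inA a) = pmU a := fun a => Monoid.Coprod.lift_apply_inl _ _ a
  have hπB : ∀ x, π (inB x) = e x := fun x => Monoid.Coprod.lift_apply_inr _ _ x
  have hconj : ∀ s ∈ sg, ∀ i, pmU s * e (G i) * (pmU s)⁻¹ ∈ fixT (lastT n r) := fun s hs i => by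
    have := conj_mem_fixT s (hGfix i)
    rwa [hsgT s hs] at this
  have htrue : ∀ x ∈ R, π x = 1 := by
    have E : ∀ {x y}, π x = π y → π (eq' x y) = 1 := fun {x y} h => by
      show π (x * y⁻¹) = 1
      rw [map_mul, map_inv, h, mul_inv_cancel]
    intro x hx
    simp only [R, RA, RS, RC, List.mem_append, List.mem_ofFn, List.mem_flatMap, List.mem_map] at hx
    rcases hx with (⟨i, rfl⟩ | ⟨s, hs, i, rfl⟩) | ⟨⟨i, j⟩, -, rfl⟩
    · refine E ?_
      rw [hπA, hπB, hprespec _ (pmU_mem_fixT (hcyc i))]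
    · refine E ?_
      rw [map_mul, map_mul, map_inv, hπA, hπB, hπB, hprespec _ (fixT_mono hsub (hconj s hs i))]
    · refine E ?_
      simp only [map_mul, map_inv, hπA, hπB]
      exact commute_fixT hF hd0 (hGfix i) (conj_mem_fixT τ0 (hGfix j))
  let N := Subgroup.normalClosure {x | x ∈ R}
  let mkW := QuotientGroup.mk' N
  have heq : ∀ {x y}, eq' x y ∈ R → mkW x = mkW y := fun {x y} hxy => by
    rw [← mul_inv_eq_one, ← map_inv, ← map_mul]
    exact (QuotientGroup.eq_one_iff _).2 (Subgroup.subset_normalClosure hxy)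
  let πW : Monoid.Coprod A B ⧸ N →* Sug (n + 1) F q :=
    QuotientGroup.lift N π (Subgroup.normalClosure_le_normal fun x hx => htrue x hx)
  let P := mkW.comp inA
  let ι := mkW.comp inB
  have hπP : ∀ a, πW (P a) = pmU a := hπA
  have hπι : ∀ x, πW (ι x) = e x := hπB
  have hAgen : ∀ σ ∈ altIn (tailT n d), P σ ∈ ι.range := by
    intro σ hσ
    refine altIn_le_closure hbd hb2 (X := ι.range.comap P) (fun t ht ht2 hh => ?_) hσ
    refine ⟨pre (pmU (cyc ⟨t - d, by omega⟩)), ?_⟩
    have he : cyc ⟨t - d, by omega⟩ =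
        (⟨cyc3 t ⟨n, by omega⟩ ⟨n - 1, by omega⟩, hh⟩ : A) := Subtype.ext (by
      show cyc3 _ _ _ = cyc3 _ _ _
      rw [show (⟨d + ((⟨t - d, by omega⟩ : Fin (b - 2)) : ℕ), by simp only; omega⟩ : Fin (n + 1)) = t
        from Fin.ext (by simp only; omega)])
    rw [← he]
    exact (heq (x := inA (cyc ⟨t - d, by omega⟩)) (List.mem_append_left _ (List.mem_append_left _
      (List.mem_ofFn.2 ⟨_, rfl⟩)))).symm
  let U0 : Subgroup (Monoid.Coprod A B ⧸ N) := (Subgroup.closure (Set.range G)).map ι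
  have hU0 : ∀ x ∈ ι.range, πW x ∈ fixT (lastT n r) → x ∈ U0 := by
    rintro _ ⟨y, rfl⟩ hy
    rw [hπι] at hy
    exact ⟨y, hGgen y hy, rfl⟩
  have hU0le : ∀ x ∈ U0, πW x ∈ fixT (lastT n r) ∧ x ∈ ι.range := by
    rintro _ ⟨y, hy, rfl⟩
    refine ⟨?_, y, rfl⟩
    rw [hπι]
    exact (Subgroup.closure_le ((fixT (lastT n r)).comap e)).2 (by rintro _ ⟨i, rfl⟩; exact hGfix i) hy
  have hST : ∀ τ : A, (lastT n r).image τ.1 = lastT n r → ∀ x ∈ U0, P τ * x * (P τ)⁻¹ ∈ U0 := by
    intro τ hτ
    have hmem := hsgen τ hτ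
    rw [← Subgroup.closure_eq (altIn (lastT n r)), ← Subgroup.closure_union,
      ← Subgroup.mem_toSubmonoid, Subgroup.closure_toSubmonoid_of_finite] at hmem
    clear hτ
    induction hmem using Submonoid.closure_induction with
    | mem s hs =>
      intro x hx
      rcases hs with hs | hs
      · refine (Subgroup.map_le_iff_le_comap.2 ((Subgroup.closure_le
          ((U0.comap (MulAut.conj (P s)).toMonoidHom).comap ι)).2 ?_)) hx
        rintro _ ⟨i, rfl⟩
        show P s * ι (G i) * (P s)⁻¹ ∈ U0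
        refine hU0 _ ⟨pre (pmU s * e (G i) * (pmU s)⁻¹), ?_⟩ ?_
        · refine Eq.symm ?_
          show mkW (inA s) * mkW (inB (G i)) * (mkW (inA s))⁻¹ = _
          rw [← map_inv, ← map_mul, ← map_mul]
          exact heq (List.mem_append_left _ (List.mem_append_right _
            (List.mem_flatMap.2 ⟨s, hs, List.mem_ofFn.2 ⟨i, rfl⟩⟩)))
        · rw [map_mul, map_mul, map_inv, hπP, hπι]
          exact hconj s hs i
      · obtain ⟨hx1, hx2⟩ := hU0le x hx
        have hs' : P s ∈ ι.range := hAgen s fun l hl => hs l fun h => hl (hsub h)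
        refine hU0 _ (mul_mem (mul_mem hs' hx2) (inv_mem hs')) ?_
        rw [map_mul, map_mul, map_inv, hπP]
        have hm : (pmU s : Sug (n + 1) F q) ∈ fixT (lastT n r) := pmU_mem_fixT hs
        exact mul_mem (mul_mem hm hx1) (inv_mem hm)
    | one => intro x hx; simpa using hx
    | mul s t _ _ hs ht =>
      intro x hx
      have := hs _ (ht x hx)
      rw [map_mul]
      convert this using 1
      group
  have hcomm : ∀ x ∈ U0, ∀ y ∈ U0, Commute x (P τ0 * y * (P τ0)⁻¹) := by
    intro x hx y hy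
    rcases hpairs with ⟨h0, himg⟩ | hp
    · obtain ⟨hx1, u, rfl⟩ := hU0le x hx
      obtain ⟨hy1, w, rfl⟩ := hU0le y hy
      obtain ⟨z, hz⟩ := hAgen τ0 h0
      have hze : e z = pmU τ0 := by rw [← hπι, hz, hπP]
      rw [← hz, ← map_inv, ← map_mul, ← map_mul]
      refine Commute.map ?_ ι
      rw [hπι] at hx1 hy1
      have hm : e (z * w * z⁻¹) ∈ fixT ((lastT n r).image τ0.1) := by
        rw [map_mul, map_mul, map_inv, hze]
        exact conj_mem_fixT τ0 hy1
      have hc : Commute (e u) (e (z * w * z⁻¹)) := commute_fixT hF hd0 hx1 hm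
      refine hinj ?_
      rw [map_mul e u, map_mul e _ u]
      exact hc.eq
    · have key : ∀ i j, Commute (ι (G i)) (P τ0 * ι (G j) * (P τ0)⁻¹) := by
        have base : ∀ i j, (i, j) ∈ pairs → Commute (ι (G i)) (P τ0 * ι (G j) * (P τ0)⁻¹) := by
          intro i j h
          show mkW (inB (G i)) * (mkW (inA τ0) * mkW (inB (G j)) * (mkW (inA τ0))⁻¹) =
            mkW (inA τ0) * mkW (inB (G j)) * (mkW (inA τ0))⁻¹ * mkW (inB (G i))
          rw [← map_inv, ← map_mul, ← map_mul, ← map_mul, ← map_mul]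
          exact heq (List.mem_append_right _ (List.mem_map.2 ⟨(i, j), h, rfl⟩))
        intro i j
        rcases hp i j with h | ⟨h, hinv⟩
        · exact base i j h
        · have := ((base j i h).map (MulAut.conj (P τ0)).toMonoidHom).symm
          have h2 : P τ0 * P τ0 = 1 := by rw [← map_mul, hinv, map_one]
          have h3 : (P τ0)⁻¹ = P τ0 := inv_eq_of_mul_eq_one_right h2
          simp only [MulEquiv.coe_toMonoidHom, MulAut.conj_apply, h3] at this
          rw [h3]
          convert this using 1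
          rw [show P τ0 * (P τ0 * ι (G i) * P τ0) * P τ0 =
            (P τ0 * P τ0) * ι (G i) * (P τ0 * P τ0) by group, h2, one_mul, mul_one]
      obtain ⟨u, hu, rfl⟩ := hx
      obtain ⟨w, hw, rfl⟩ := hy
      induction hw using Subgroup.closure_induction with
      | mem w hw =>
        obtain ⟨j, rfl⟩ := hw
        refine (commute_of_closure (s := Set.range (ι ∘ G)) (fun y hy => ?_) ?_).symm
        · obtain ⟨i, rfl⟩ := hy
          exact (key i j).symm
        · rw [Set.range_comp, ← MonoidHom.map_closure]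
          exact ⟨u, hu, rfl⟩
      | one => simp
      | mul a c _ _ ha hc =>
        rw [map_mul, show P τ0 * (ι a * ι c) * (P τ0)⁻¹ =
          (P τ0 * ι a * (P τ0)⁻¹) * (P τ0 * ι c * (P τ0)⁻¹) by group]
        exact ha.mul_right hc
      | inv a _ ha =>
        rw [map_inv, show P τ0 * (ι a)⁻¹ * (P τ0)⁻¹ = (P τ0 * ι a * (P τ0)⁻¹)⁻¹ by group]
        exact ha.inv_right
  let D : Seed F q n d r (Monoid.Coprod A B ⧸ N) :=
    { hF := hF
      two_le := hr2
      hdr := hdr
      π := πW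
      P := P
      IB := ι.range
      π_P := hπP
      IB_inj := by
        rintro _ ⟨x, rfl⟩ h
        rw [hπι, ← map_one e] at h
        rw [hinj h, map_one]
      IB_mem := by
        rintro _ ⟨x, rfl⟩
        rw [hπι]
        have : e x ∈ e.range := ⟨x, rfl⟩
        rwa [hrange] at this
      IB_surj := fun y hy => ⟨ι (pre y), ⟨_, rfl⟩, by rw [hπι, hprespec y hy]⟩
      hA := hAgen
      hST := fun τ hτ x hx hxT => (hU0le _ (hST τ hτ x (hU0 x hx hxT))).2
      hC := fun _ => ⟨τ0, hd0, fun x hx hxT y hy hyT => hcomm x (hU0 x hx hxT) y (hU0 y hy hyT)⟩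
      gen := by
        rw [eq_top_iff, ← Subgroup.map_top_of_surjective mkW (QuotientGroup.mk'_surjective N),
          ← Monoid.Coprod.range_inl_sup_range_inr, Subgroup.map_sup, MonoidHom.map_range,
          MonoidHom.map_range] }
  obtain ⟨hinjW, hsurW⟩ := faith _ D
  have hsurj : Function.Surjective π := fun y => by
    obtain ⟨w0, hw0⟩ := hsurW y
    obtain ⟨c0, rfl⟩ := QuotientGroup.mk'_surjective N w0
    exact ⟨c0, hw0⟩
  have hker : π.ker ≤ N := fun x hx =>
    (QuotientGroup.eq_one_iff x).1 (hinjW (show πW (mkW x) = πW 1 by rw [map_one]; exact hx))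
  obtain ⟨v, hv⟩ := SpPres.hasPres_of_coprod hA hB π R htrue hsurj hker
  refine ⟨v, hv.mono (Nat.add_le_add_left ?_ _)⟩
  have h1 : RS.length ≤ 2 * (if r + 2 = n + 1 then 1 else 2) := by
    have hlen : RS.length = 2 * sg.length := by
      simp only [RS, List.length_flatMap, List.length_ofFn, List.map_const', List.sum_replicate,
        smul_eq_mul]
      ring
    rw [hlen]
    split_ifs with h
    · have := hsg1 (by omega); omega
    · omega
  simp only [R, RA, RC, List.length_append, List.length_ofFn, List.length_map]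
  omega

end

end Cfsg.Agent.SUPres
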