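import Cfsg.Agent.Classical.UTwo
import Cfsg.Agent.Classical.UGen
import Cfsg.Agent.SpPres.Final
import Cfsg.Agent.SU3Pres.Main
import Cfsg.Agent.PhanSU.Geometry

/-!
Transport of presentations between models of the small unitary groups; central quotients.
-/

set_option autoImplicit false

namespace Cfsg.Agent.SUPres

open Cfsg.Agent.Classical.U Cfsg.Agent.PhanSU
open Cfsg.Agent.GKKL (HasPres)

universe u

noncomputable section

/-- Moving a presentation along an isomorphism. -/
theorem hasPres_equiv {G H : Type*} [Group G] [Group H] {l r : ℕ} {v : Fin l → G}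
    (h : HasPres v r) (e : G ≃* H) : HasPres (fun i => e (v i)) r := by
  obtain ⟨rels, hc, f, hf⟩ := h
  exact ⟨rels, hc, f.trans e, fun i => congrArg e (hf i)⟩

theorem hasPres_of_iso {G : Type*} [Group G] {l r : ℕ} (rels : Finset (FreeGroup (Fin l)))
    (hc : rels.card ≤ r) (e : PresentedGroup (↑rels : Set (FreeGroup (Fin l))) ≃* G) :
    ∃ v : Fin l → G, HasPres v r :=
  ⟨fun i => e (PresentedGroup.of i), rels, hc, e, fun _ => rfl⟩

variable {F : Type u} [Field F] {q : ℕ}

/-- The two dimensional special unitary group has two generators. -/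
theorem sug_two_gen (hF : SqField F q) :
    ∃ g : Fin 2 → Sug 2 F q, Subgroup.closure (Set.range g) = ⊤ := by
  obtain ⟨p, k, hp, -, hpk⟩ := hF.exists_char
  haveI : Fact p.Prime := ⟨hp⟩
  have hk : k ≠ 0 := by
    rintro rfl
    have := hF.one_lt
    simp at hpk
    omega
  haveI : Fintype (GaloisField p k) := Fintype.ofFinite _
  obtain ⟨e⟩ := SU_two_equiv (K := GaloisField p k) hF (by rw [GaloisField.card p k hk, hpk])
  obtain ⟨G, hG⟩ := SpPres.exists_two_gen (F := GaloisField p k) 0
  let f := e.symm.trans (suEquiv 2 F q)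
  refine ⟨fun i => f (G i), ?_⟩
  show Subgroup.closure (Set.range (f.toMonoidHom ∘ G)) = ⊤
  rw [Set.range_comp, ← MonoidHom.map_closure, hG, Subgroup.map_top_of_surjective _ f.surjective]

theorem isCyclic_center_su (hF : SqField F q) {n : ℕ} (hn : 2 ≤ n) :
    IsCyclic (Subgroup.center (Cfsg.SU n F q)) := by
  obtain ⟨hfin, -⟩ := id hF
  let i0 : Fin n := ⟨0, by omega⟩
  have key : ∀ s : Subgroup.center (Cfsg.SU n F q), ∃ c : F,
      (s.1.1 : Matrix (Fin n) (Fin n) F) = Matrix.scalar (Fin n) c := by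
    intro s
    obtain ⟨c, hc⟩ := center_SUG_scalar hF hn (suEquiv n F q s.1) (Subgroup.mem_center_iff.2 fun g => by
      obtain ⟨t, rfl⟩ := (suEquiv n F q).surjective g
      rw [← map_mul, ← map_mul, Subgroup.mem_center_iff.1 s.2 t])
    refine ⟨c, Matrix.ext_of_mulVec_single fun i => ?_⟩
    have h := hc (Pi.single i 1)
    show Matrix.mulVec (s.1.1 : Matrix (Fin n) (Fin n) F) (Pi.single i 1) = _
    rw [show Matrix.mulVec (s.1.1 : Matrix (Fin n) (Fin n) F) (Pi.single i 1) = c • Pi.single i 1 from h]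
    ext j
    simp [Matrix.mulVec_single, Matrix.scalar_apply, Matrix.diagonal_apply, Pi.single_apply]
  choose c hc using key
  let f : Subgroup.center (Cfsg.SU n F q) →* F :=
    { toFun := fun s => (s.1.1 : Matrix (Fin n) (Fin n) F) i0 i0
      map_one' := by simp
      map_mul' := fun s t => by
        show ((s.1.1 : Matrix (Fin n) (Fin n) F) * (t.1.1 : Matrix (Fin n) (Fin n) F)) i0 i0 = _
        rw [hc s, hc t, ← map_mul]
        simp }
  refine isCyclic_of_subgroup_isDomain f fun s t h => ?_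
  have hs : ∀ s, f s = c s := fun s => by
    show (s.1.1 : Matrix (Fin n) (Fin n) F) i0 i0 = _
    rw [hc s]
    simp
  rw [hs, hs] at h
  apply Subtype.ext
  apply Subtype.ext
  apply Subtype.ext
  rw [hc s, hc t, h]

/-- A presentation of the central quotient. -/
theorem psu_of_su (hF : SqField F q) {n l r : ℕ} (hn : 2 ≤ n) {v : Fin l → Cfsg.SU n F q}
    (h : HasPres v r) : ∃ w : Fin l → Cfsg.PSU n F q, HasPres w (r + 1) := by
  haveI := isCyclic_center_su hF hn
  exact ⟨_, ShortPres.hasPres_quot h (Subgroup.center _)⟩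

/-- The presentation of the three dimensional group for `q ∉ {2, 3, 5}`. -/
theorem su3_generic [Fintype F] (hF : Fintype.card F = q ^ 2) (h2 : q ≠ 2) (h3 : q ≠ 3)
    (h5 : q ≠ 5) : ∃ v : Fin 3 → Cfsg.SU 3 F q, HasPres v 23 := by
  obtain ⟨⟨R, hR, ⟨e⟩⟩, -⟩ := SU3Pres.presentations q hF h2 h3 h5
  exact hasPres_of_iso R hR e

end

end Cfsg.Agent.SUPres
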