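import Cfsg.Agent.PhanSU.Geometry

/-!
Weights of vectors over the field of four elements; generation of the coordinate unitary groups by
those of three coordinates.
-/

set_option autoImplicit false

open scoped Classical

namespace Cfsg.Agent.SUPres

open Cfsg.Agent.Classical.U Cfsg.Agent.PhanSU

universe u

noncomputable section

variable {F : Type u} [Field F] {m : ℕ}

/-- The number of nonzero coordinates in a set. -/
def wS (S : Finset (Fin m)) (v : Fin m → F) : ℕ := (S.filter fun l => v l ≠ 0).card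

/-- The number of nonzero coordinates. -/
def wt (v : Fin m → F) : ℕ := wS Finset.univ v

theorem wt_split (S : Finset (Fin m)) (v : Fin m → F) : wt v = wS S v + wS Sᶜ v := by
  unfold wt wS
  rw [← Finset.card_union_of_disjoint, ← Finset.filter_union, Finset.union_compl]
  exact Finset.disjoint_filter_filter disjoint_compl_right

theorem wS_congr {S : Finset (Fin m)} {v v' : Fin m → F} (h : ∀ l ∈ S, v l = v' l) :
    wS S v = wS S v' := by
  unfold wS
  congr 1
  exact Finset.filter_congr fun l hl => by rw [h l hl]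

theorem wS_le_card (S : Finset (Fin m)) (v : Fin m → F) : wS S v ≤ S.card :=
  Finset.card_filter_le _ _

/-- The restriction of a vector to a set of coordinates. -/
def res (S : Finset (Fin m)) (v : Fin m → F) : Fin m → F := fun l => if l ∈ S then v l else 0

theorem res_mem (S : Finset (Fin m)) (v : Fin m → F) : res S v ∈ supp S := fun l hl => if_neg hl

theorem wS_res (S : Finset (Fin m)) (v : Fin m → F) : wS S (res S v) = wS S v :=
  wS_congr fun l hl => if_pos hl

theorem wt_res (S : Finset (Fin m)) (v : Fin m → F) : wt (res S v) = wS S v := by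
  rw [wt_split S, wS_res, add_eq_left]
  unfold wS
  rw [Finset.card_eq_zero, Finset.filter_eq_empty_iff]
  intro l hl h
  exact h (if_neg (Finset.mem_compl.1 hl))

theorem exists_of_wS_one {S : Finset (Fin m)} {v : Fin m → F} (h : wS S v = 1) :
    ∃ x ∈ S, v x ≠ 0 ∧ res S v = v x • (dd x : Fin m → F) ∧ ∀ l ∈ S, l ≠ x → v l = 0 := by
  obtain ⟨x, hx⟩ := Finset.card_eq_one.1 h
  have hm := Finset.mem_filter.1 (hx ▸ Finset.mem_singleton_self x : x ∈ S.filter fun l => v l ≠ 0)
  have hz : ∀ l ∈ S, l ≠ x → v l = 0 := fun l hl hne => by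
    by_contra h0
    have : l ∈ S.filter fun l => v l ≠ 0 := Finset.mem_filter.2 ⟨hl, h0⟩
    rw [hx, Finset.mem_singleton] at this
    exact hne this
  refine ⟨x, hm.1, hm.2, ?_, hz⟩
  funext l
  by_cases hl : l = x
  · subst hl
    simp [res, hm.1, dd_self]
  · rw [Pi.smul_apply, dd_ne hl, smul_zero, res]
    split_ifs with hS
    · exact hz l hS hl
    · rfl

variable {q : ℕ}

theorem fix_of_zero {T : Finset (Fin m)} {g : Sug m F q} (hg : g ∈ fixT T) {v : Fin m → F}
    (hv : ∀ l ∈ T, v l = 0) : app g v = v :=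
  app_eq_self_of_supp (T := Tᶜ) (fun l hl => hg l (Finset.mem_compl.1 hl))
    fun l hl => hv l (by simpa using hl)

theorem app_split {S : Finset (Fin m)} {g : Sug m F q} (hg : g ∈ fixT S) (v : Fin m → F) :
    app g v = app g (res S v) + (v - res S v) := by
  conv_lhs => rw [← add_sub_cancel (res S v) v]
  rw [app_add, fix_of_zero hg (v := v - res S v) fun l hl => by simp [res, hl]]

variable (hF : SqField F 2)
include hF

theorem app_coord {S : Finset (Fin m)} {g : Sug m F 2} (hg : g ∈ fixT S) (v : Fin m → F)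
    {l : Fin m} (hl : l ∉ S) : app g v l = v l :=
  app_coord_of_fix hF (hg l hl) v

theorem wS_compl_app {S : Finset (Fin m)} {g : Sug m F 2} (hg : g ∈ fixT S) (v : Fin m → F) :
    wS Sᶜ (app g v) = wS Sᶜ v :=
  wS_congr fun l hl => app_coord hF hg v (Finset.mem_compl.1 hl)

theorem herm_self (v : Fin m → F) : herm 2 v v = (wt v : F) := by
  obtain ⟨hfin, hcard⟩ := id hF
  haveI : Fintype F := Fintype.ofFinite F
  rw [herm_def, wt, wS, Finset.card_filter, Nat.cast_sum]
  refine Finset.sum_congr rfl fun l _ => ?_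
  by_cases h : v l = 0
  · simp [h]
  · rw [if_pos h, Nat.cast_one, ← pow_succ']
    have := FiniteField.pow_card_sub_one_eq_one (v l) h
    rwa [← Nat.card_eq_fintype_card, hcard] at this

theorem natCast_eq_one_iff {k : ℕ} : (k : F) = 1 ↔ Odd k := by
  obtain ⟨p, e, hp, hc, hpe⟩ := hF.exists_char
  have h2 : p = 2 := by
    have : p ∣ 2 := by
      rw [hpe]; exact dvd_pow_self p (by rintro rfl; simp at hpe)
    exact (Nat.prime_dvd_prime_iff_eq hp Nat.prime_two).1 this
  subst h2
  rw [← Nat.cast_one, CharP.natCast_eq_natCast F 2, Nat.odd_iff, Nat.ModEq]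

theorem odd_wt {v : Fin m → F} (h : herm 2 v v = 1) : Odd (wt v) := by
  rwa [herm_self hF, natCast_eq_one_iff hF] at h

theorem unit_of_odd {v : Fin m → F} (h : Odd (wt v)) : herm 2 v v = 1 := by
  rwa [herm_self hF, natCast_eq_one_iff hF]

theorem parity_wS {S : Finset (Fin m)} {g : Sug m F 2} (hg : g ∈ fixT S) {v : Fin m → F}
    (hv : herm 2 v v = 1) : Odd (wS S (app g v)) ↔ Odd (wS S v) := by
  have h1 := odd_wt hF hv
  have h2 := odd_wt hF (v := app g v) (by rw [app_herm]; exact hv)
  rw [wt_split S] at h1 h2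
  rw [wS_compl_app hF hg] at h2
  rw [Nat.odd_iff] at h1 h2 ⊢
  rw [Nat.odd_iff]
  omega

/-- A unit in the plane of three nonzero coordinates moves to a single coordinate. -/
theorem exists_reduction {S : Finset (Fin m)} {v : Fin m → F} (h : 3 ≤ wS S v) :
    ∃ T ⊆ S, T.card = 3 ∧ (∀ l ∈ T, v l ≠ 0) ∧
      ∃ g ∈ (fixT T : Subgroup (Sug m F 2)), wt (app g v) + 2 = wt v := by
  obtain ⟨T, hT, hc⟩ := Finset.exists_subset_card_eq h
  have hTv : ∀ l ∈ T, v l ≠ 0 := fun l hl => (Finset.mem_filter.1 (hT hl)).2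
  refine ⟨T, hT.trans (Finset.filter_subset _ _), hc, hTv, ?_⟩
  obtain ⟨i, hi⟩ := Finset.card_pos.1 (by omega : 0 < T.card)
  have h3 : wS T v = 3 := by
    rw [wS, Finset.filter_true_of_mem hTv, hc]
  obtain ⟨g, hg, hge⟩ := exists_fixT_map hF (T := T) (by omega) (res_mem T v) (dd_mem_supp hi)
    (unit_of_odd hF (by rw [wt_res, h3]; decide)) (dd_unit hF i)
  refine ⟨g, hg, ?_⟩
  have h1 : wS T (app g v) = 1 := by
    rw [wS, Finset.card_eq_one]
    refine ⟨i, Finset.eq_singleton_iff_unique_mem.2 ⟨?_, fun l hl => ?_⟩⟩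
    · rw [Finset.mem_filter, app_split hg v, hge]
      exact ⟨hi, by simp [res, hi, dd_self]⟩
    · rw [Finset.mem_filter, app_split hg v, hge] at hl
      by_contra hne
      exact hl.2 (by simp [res, hl.1, dd_ne hne])
  rw [wt_split T, wS_compl_app hF hg, wt_split T v, h1, h3]
  omega

/-- The coordinate unitary groups are generated by those of triples. -/
theorem fixT_le_triples {S : Finset (Fin m)} (hS : 3 ≤ S.card) :
    (fixT S : Subgroup (Sug m F 2)) ≤
      Subgroup.closure {g | ∃ T ⊆ S, T.card = 3 ∧ g ∈ fixT T} := by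
  induction hn : S.card using Nat.strong_induction_on generalizing S with
  | _ s ih =>
  subst hn
  set X : Subgroup (Sug m F 2) := Subgroup.closure {g | ∃ T ⊆ S, T.card = 3 ∧ g ∈ fixT T}
  have hmem : ∀ {T}, T ⊆ S → T.card = 3 → ∀ {g : Sug m F 2}, g ∈ fixT T → g ∈ X :=
    fun hT hc _ hg => Subgroup.subset_closure ⟨_, hT, hc, hg⟩
  rcases eq_or_lt_of_le hS with h | h
  · exact fun g hg => hmem subset_rfl h.symm hg
  have hXS : X ≤ fixT S := (Subgroup.closure_le _).2 fun g ⟨T, hT, _, hg⟩ => fixT_mono hT hg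
  obtain ⟨s, hs⟩ := Finset.card_pos.1 (by omega : 0 < S.card)
  have trans : ∀ (j : ℕ) (v : Fin m → F), wt v = j → v ∈ supp S → herm 2 v v = 1 →
      ∃ x ∈ X, app x (dd s) = v := by
    intro j
    induction j using Nat.strong_induction_on with
    | _ j ihj =>
    intro v hj hv hv1
    have hw : wS S v = wt v := by
      rw [wt_split S, left_eq_add, wS, Finset.card_eq_zero, Finset.filter_eq_empty_iff]
      exact fun l hl h0 => h0 (hv l (Finset.mem_compl.1 hl))
    by_cases h3 : 3 ≤ wS S v
    · obtain ⟨T, hT, hc, -, g, hg, hgw⟩ := exists_reduction hF h3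
      obtain ⟨x, hx, hxe⟩ := ihj _ (by omega) (app g v) rfl
        (app_mem_supp hF (fixT_mono hT hg) hv) (by rw [app_herm]; exact hv1)
      exact ⟨g⁻¹ * x, mul_mem (inv_mem (hmem hT hc hg)) hx, by rw [app_mul, hxe, app_inv_app]⟩
    · have h1 : wS S v = 1 := by
        have := odd_wt hF hv1
        rw [← hw, Nat.odd_iff] at this
        omega
      obtain ⟨i, hi, -, hres, -⟩ := exists_of_wS_one h1
      obtain ⟨T, hT1, hT2, hc⟩ := Finset.exists_subsuperset_card_eq (n := 3)
        (Finset.insert_subset hs (Finset.singleton_subset_iff.2 hi) : ({s, i} : Finset (Fin m)) ⊆ S)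
        (Finset.card_le_two.trans (by omega)) hS
      have hv' : v ∈ supp T := fun l hl => by
        by_cases hlS : l ∈ S
        · have : res S v l = v i • (dd i : Fin m → F) l := by rw [hres]; rfl
          rw [res, if_pos hlS, dd_ne, smul_zero] at this
          · exact this
          · rintro rfl; exact hl (hT1 (by simp))
        · exact hv l hlS
      obtain ⟨g, hg, hge⟩ := exists_fixT_map hF (T := T) (by omega)
        (dd_mem_supp (hT1 (by simp))) hv' (dd_unit hF s) hv1
      exact ⟨g, hmem hT2 hc hg, hge⟩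
  intro g hg
  obtain ⟨x, hx, hxe⟩ := trans _ (app g (dd s)) rfl (app_mem_supp hF hg (dd_mem_supp hs))
    (by rw [app_herm]; exact dd_unit hF s)
  have h2 : x⁻¹ * g ∈ fixT (S.erase s) := fun l hl => by
    rw [Finset.mem_erase, not_and_or, not_not] at hl
    rcases hl with rfl | hl
    · rw [app_mul, ← hxe, app_inv_app]
    · exact mul_mem (inv_mem (hXS hx)) hg l hl
  have h3 := ih (S.erase s).card (Finset.card_erase_lt_of_mem hs)
    (by rw [Finset.card_erase_of_mem hs]; omega) rfl h2
  have h4 : x⁻¹ * g ∈ X :=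
    Subgroup.closure_mono (fun y hy => by
      obtain ⟨T, hT, hc, hy⟩ := hy
      exact ⟨T, hT.trans (Finset.erase_subset _ _), hc, hy⟩) h3
  simpa using mul_mem hx h4

end

end Cfsg.Agent.SUPres
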