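import Cfsg.Agent.SUPres.Seed
import Cfsg.Agent.SUPres.TwoGen

/-!
The amalgam over the field of four elements: triples of coordinates inside sets of five.
-/

set_option autoImplicit false

open scoped Classical

namespace Cfsg.Agent.SUPres

open Equiv Cfsg.Agent.Classical.U Cfsg.Agent.PhanSU

universe u v

noncomputable section

variable {F : Type u} [Field F] {n d : ℕ} {W : Type v} [Group W]

namespace Seed

variable (D : Seed F 2 n d 3 W)

/-- The subgroup generated by the lifts of the triples in a set. -/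
def Lam (S : Finset (Fin (n + 1))) : Subgroup W :=
  Subgroup.closure {x | ∃ T ⊆ S, T.card = 3 ∧ x ∈ D.U T}

theorem mem_Lam {S T : Finset (Fin (n + 1))} (hT : T ⊆ S) (hc : T.card = 3) {x : W}
    (hx : x ∈ D.U T) : x ∈ D.Lam S :=
  Subgroup.subset_closure ⟨T, hT, hc, hx⟩

theorem Lam_mono {S S' : Finset (Fin (n + 1))} (h : S ⊆ S') : D.Lam S ≤ D.Lam S' :=
  (Subgroup.closure_le _).2 fun _ ⟨_, hT, hc, hx⟩ => D.mem_Lam (hT.trans h) hc hx

theorem π_Lam {S : Finset (Fin (n + 1))} {x : W} (hx : x ∈ D.Lam S) : D.π x ∈ fixT S := by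
  suffices h : D.Lam S ≤ (fixT S).comap D.π from h hx
  exact (Subgroup.closure_le _).2 fun y ⟨T, hT, _, hy⟩ => fixT_mono hT (D.π_U hy)

theorem Lam_surj {S : Finset (Fin (n + 1))} (hS : 3 ≤ S.card) {g : Sug (n + 1) F 2}
    (hg : g ∈ fixT S) : ∃ x ∈ D.Lam S, D.π x = g := by
  suffices h : (fixT S : Subgroup (Sug (n + 1) F 2)) ≤ (D.Lam S).map D.π by
    obtain ⟨x, hx, rfl⟩ := h hg
    exact ⟨x, hx, rfl⟩
  refine (fixT_le_triples D.hF hS).trans ((Subgroup.closure_le _).2 fun y ⟨T, hT, hc, hy⟩ => ?_)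
  obtain ⟨x, hx, rfl⟩ := D.U_surj hc hy
  exact ⟨x, D.mem_Lam hT hc hx, rfl⟩

theorem Lam_eq (hd : d + 5 = n + 1) {S : Finset (Fin (n + 1))} (hS : S.card ≤ 5) {x y : W}
    (hx : x ∈ D.Lam S) (hy : y ∈ D.Lam S) (h : D.π x = D.π y) : x = y := by
  obtain ⟨S', hSS', -, hc⟩ := Finset.exists_subsuperset_card_eq (n := 5) (Finset.subset_univ S) hS
    (by rw [Finset.card_univ, Fintype.card_fin]; omega)
  have hB : (tailT n d).card = 5 := by rw [card_tailT d (by omega)]; omega
  obtain ⟨τ, hτ⟩ := exists_even_image (S := tailT n d) (T := S') (by omega) (by omega)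
  have hle : D.Lam S ≤ D.C τ := (Subgroup.closure_le _).2 fun z ⟨T, hT, hTc, hz⟩ =>
    D.U_le_C hTc (by rw [hτ]; exact hT.trans hSS') hz
  exact D.C_eq (hle hx) (hle hy) h

theorem Lam_univ (hd : d + 5 = n + 1) : D.Lam Finset.univ = ⊤ := by
  rw [eq_top_iff, ← D.gen, sup_le_iff]
  constructor
  · rintro _ ⟨σ, rfl⟩
    have hσ : σ ∈ (⊤ : Subgroup (alternatingGroup (Fin (n + 1)))) := Subgroup.mem_top σ
    suffices h : (⊤ : Subgroup (alternatingGroup (Fin (n + 1)))) ≤
        (D.Lam Finset.univ).comap D.P from h hσ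
    have hcl : Subgroup.closure {τ : Perm (Fin (n + 1)) | τ.IsThreeCycle} =
        alternatingGroup (Fin (n + 1)) := Perm.closure_three_cycles_eq_alternating
    intro τ _
    have h2 : τ.1 ∈ ((D.Lam Finset.univ).comap D.P).map
        (alternatingGroup (Fin (n + 1))).subtype := by
      have hτc : τ.1 ∈ Subgroup.closure {τ : Perm (Fin (n + 1)) | τ.IsThreeCycle} := by
        rw [hcl]; exact τ.2
      refine (Subgroup.closure_le _).2 ?_ hτc
      intro c (hc : c.IsThreeCycle)
      refine ⟨⟨c, hc.mem_alternatingGroup⟩, ?_, rfl⟩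
      obtain ⟨ρ, hρ⟩ := D.exists_image (T := c.support) hc.card_support
      show D.P ⟨c, hc.mem_alternatingGroup⟩ ∈ D.Lam Finset.univ
      refine D.mem_Lam (Finset.subset_univ _) hc.card_support ((D.mem_U hρ).2 ⟨?_, ?_⟩)
      · rw [mem_C, ← map_inv, ← map_mul, ← map_mul]
        refine D.hA _ fun l hl => ?_
        have hl' : ρ.1 l ∉ c.support := by
          rw [← hρ, Finset.mem_image]
          rintro ⟨y, hy, e⟩
          exact hl (D.lastT_sub (ρ.1.injective e ▸ hy))
        show (ρ.1⁻¹ * c * ρ.1) l = l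
        rw [Perm.mul_apply, Perm.mul_apply, Perm.notMem_support.1 hl']
        exact ρ.1.symm_apply_apply l
      · rw [D.π_P]
        exact pmU_mem_fixT fun l hl => Perm.notMem_support.1 hl
    obtain ⟨τ', hτ', e⟩ := h2
    obtain rfl : τ' = τ := Subtype.ext e
    exact hτ'
  · intro x hx
    obtain ⟨y, hy, hye⟩ := D.Lam_surj (S := tailT n d) (by rw [card_tailT d (by omega)]; omega)
      (D.IB_mem x hx)
    have hle : D.Lam (tailT n d) ≤ D.IB := (Subgroup.closure_le _).2 fun z ⟨T, hT, hc, hz⟩ =>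
      D.U_le_IB hc hT hz
    have : y = x := inv_mul_eq_one.1 (D.IB_inj _ (mul_mem (inv_mem (hle hy)) hx)
      (by rw [map_mul, map_inv, hye, inv_mul_cancel]))
    exact D.Lam_mono (Finset.subset_univ _) (this ▸ hy)

end Seed

/-- The situation of the induction step. -/
structure TwoCtx (F : Type u) [Field F] (n d : ℕ) (W : Type v) [Group W] where
  D : Seed F 2 n d 3 W
  hd : d + 5 = n + 1
  k : ℕ
  hk : k + 6 ≤ n + 1

namespace TwoCtx

variable (X : TwoCtx F n d W)

/-- The current set of coordinates. -/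
abbrev tl : Finset (Fin (n + 1)) := tailT n X.k

/-- The first coordinate of the step. -/
abbrev k' : Fin (n + 1) := ⟨X.k, by have := X.hk; omega⟩

/-- The first basis vector of the step. -/
abbrev e : Fin (n + 1) → F := dd X.k'

/-- The coordinates after the first one. -/
abbrev nx : Finset (Fin (n + 1)) := tailT n (X.k + 1)

/-- The cosets of the stabiliser. -/
abbrev Ω : Type v := W ⧸ X.D.Lam X.nx

/-- The action through the projection. -/
abbrev act (x : W) (v : Fin (n + 1) → F) : Fin (n + 1) → F := app (X.D.π x) v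

/-- Units in the current space. -/
def Un (v : Fin (n + 1) → F) : Prop := v ∈ supp X.tl ∧ herm 2 v v = 1

theorem k_mem : X.k' ∈ X.tl := mem_tailT.2 le_rfl

theorem card_tl : X.tl.card = n + 1 - X.k := card_tailT _ (by have := X.hk; omega)

theorem unit_e : X.Un X.e := ⟨dd_mem_supp X.k_mem, dd_unit X.D.hF _⟩

theorem Un.act {X : TwoCtx F n d W} {v : Fin (n + 1) → F} (hv : X.Un v) {S : Finset (Fin (n + 1))}
    (hS : S ⊆ X.tl) {x : W} (hx : x ∈ X.D.Lam S) : X.Un (X.act x v) :=
  ⟨app_mem_supp X.D.hF (fixT_mono hS (X.D.π_Lam hx)) hv.1, by rw [app_herm]; exact hv.2⟩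

theorem Un.actU {X : TwoCtx F n d W} {v : Fin (n + 1) → F} (hv : X.Un v)
    {T : Finset (Fin (n + 1))} (hT : T ⊆ X.tl) (hc : T.card = 3) {u : W} (hu : u ∈ X.D.U T) :
    X.Un (X.act u v) :=
  hv.act subset_rfl (X.D.mem_Lam hT hc hu)

theorem Un.odd {X : TwoCtx F n d W} {v : Fin (n + 1) → F} (hv : X.Un v) : Odd (wt v) :=
  odd_wt X.D.hF hv.2

theorem act_mul (x y : W) (v : Fin (n + 1) → F) : X.act (x * y) v = X.act x (X.act y v) := by
  simp [act, app_mul]

theorem act_inv (x : W) (v : Fin (n + 1) → F) : X.act x⁻¹ (X.act x v) = v := by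
  simp [act]

theorem act_inv' (x : W) (v : Fin (n + 1) → F) : X.act x (X.act x⁻¹ v) = v := by
  simp [act]

theorem mem_of_wne {v : Fin (n + 1) → F} (hv : v ∈ supp X.tl) {l : Fin (n + 1)} (hl : v l ≠ 0) :
    l ∈ X.tl := by
  by_contra h
  exact hl (hv l h)

/-- Elements over the stabiliser of the first vector. -/
theorem mem_nx_of_fix {S : Finset (Fin (n + 1))} (hS : S ⊆ X.tl) (h4 : 4 ≤ S.card)
    (h5 : S.card ≤ 5) {x : W} (hx : x ∈ X.D.Lam S) (hfix : X.act x X.e = X.e) :
    x ∈ X.D.Lam X.nx := by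
  have hm : X.D.π x ∈ fixT (S.erase X.k') := fun l hl => by
    rw [Finset.mem_erase, not_and_or, not_not] at hl
    rcases hl with rfl | hl
    · exact hfix
    · exact X.D.π_Lam hx l hl
  obtain ⟨y, hy, hye⟩ := X.D.Lam_surj (by
    have := Finset.pred_card_le_card_erase (s := S) (a := X.k')
    omega) hm
  have := X.D.Lam_eq X.hd h5 hx (X.D.Lam_mono (Finset.erase_subset _ _) hy) hye.symm
  subst this
  refine X.D.Lam_mono (fun l hl => mem_tailT.2 ?_) hy
  obtain ⟨h1, h2⟩ := Finset.mem_erase.1 hl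
  have h3 := mem_tailT.1 (hS h2)
  have : (l : ℕ) ≠ X.k := fun e => h1 (Fin.ext e)
  omega

theorem exists_five {P : Finset (Fin (n + 1))} (hP : P ⊆ X.tl) (hc : P.card ≤ 5) :
    ∃ S, P ⊆ S ∧ S ⊆ X.tl ∧ S.card = 5 := by
  obtain ⟨S, h1, h2, h3⟩ := Finset.exists_subsuperset_card_eq (n := 5) hP hc
    (by rw [X.card_tl]; have := X.hk; omega)
  exact ⟨S, h1, h2, h3⟩

/-- A base lift of a vector of weight one. -/
def IsBase (v : Fin (n + 1) → F) (u : W) : Prop :=
  ∃ T ⊆ X.tl, T.card = 3 ∧ X.k' ∈ T ∧ (∀ l, v l ≠ 0 → l ∈ T) ∧ u ∈ X.D.U T ∧ X.act u X.e = v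

theorem base_eq {v : Fin (n + 1) → F} (hw : wt v = 1) {u u' : W} (h : X.IsBase v u)
    (h' : X.IsBase v u') : (QuotientGroup.mk u : X.Ω) = QuotientGroup.mk u' := by
  obtain ⟨T, hT, hc, hk, hv, hu, hue⟩ := h
  obtain ⟨T', hT', hc', hk', hv', hu', hue'⟩ := h'
  obtain ⟨S, hPS, hS, hS5⟩ := X.exists_five (P := T ∪ T') (Finset.union_subset hT hT') (by
    have h1 := Finset.card_union_add_card_inter T T'
    have h2 : 1 ≤ (T ∩ T').card := Finset.card_pos.2 ⟨_, Finset.mem_inter.2 ⟨hk, hk'⟩⟩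
    omega)
  rw [QuotientGroup.eq]
  refine X.mem_nx_of_fix hS (by omega) hS5.le (mul_mem
    (inv_mem (X.D.mem_Lam (Finset.subset_union_left.trans hPS) hc hu))
    (X.D.mem_Lam (Finset.subset_union_right.trans hPS) hc' hu')) ?_
  rw [X.act_mul, hue', ← hue, X.act_inv]

theorem exists_base_in {v : Fin (n + 1) → F} (hv : X.Un v) (hw : wt v = 1)
    {S : Finset (Fin (n + 1))} (hS : S ⊆ X.tl) (h3 : 3 ≤ S.card) (hk : X.k' ∈ S)
    (hsupp : ∀ l, v l ≠ 0 → l ∈ S) : ∃ u, X.IsBase v u ∧ u ∈ X.D.Lam S := by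
  obtain ⟨i, -, -, hres, hz⟩ := exists_of_wS_one (S := Finset.univ) hw
  have hiS : i ∈ S := hsupp i fun h0 => by
    have := hv.2
    rw [show v = res Finset.univ v from funext fun l => (if_pos (Finset.mem_univ l)).symm, hres,
      h0, zero_smul, herm_zero_left] at this
    exact zero_ne_one this
  obtain ⟨T, hT1, hT2, hc⟩ := Finset.exists_subsuperset_card_eq (n := 3)
    (Finset.insert_subset hk (Finset.singleton_subset_iff.2 hiS) :
      ({X.k', i} : Finset (Fin (n + 1))) ⊆ S)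
    (Finset.card_le_two.trans (by omega)) h3
  have hvT : ∀ l, v l ≠ 0 → l ∈ T := fun l hl => by
    by_contra hlT
    exact hl (hz l (Finset.mem_univ l) (by rintro rfl; exact hlT (hT1 (by simp))))
  obtain ⟨g, hg, hge⟩ := exists_fixT_map X.D.hF (T := T) (by omega)
    (dd_mem_supp (hT1 (by simp) : X.k' ∈ T)) (v := v)
    (fun l hl => by_contra fun h => hl (hvT l h)) (dd_unit X.D.hF _) hv.2
  obtain ⟨x, hx, rfl⟩ := X.D.U_surj hc hg
  exact ⟨x, ⟨T, hT2.trans hS, hc, hT1 (by simp), hvT, hx, hge⟩, X.D.mem_Lam hT2 hc hx⟩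

/-- The value at a vector of weight one. -/
def base (v : Fin (n + 1) → F) : X.Ω :=
  if h : ∃ u, X.IsBase v u then QuotientGroup.mk h.choose else QuotientGroup.mk 1

theorem base_mk {v : Fin (n + 1) → F} (hw : wt v = 1) {u : W} (h : X.IsBase v u) :
    X.base v = QuotientGroup.mk u := by
  rw [base, dif_pos ⟨u, h⟩]
  exact X.base_eq hw (Exists.choose_spec ⟨u, h⟩) h

/-- A weight reducing lift of a triple. -/
def IsRed (v : Fin (n + 1) → F) (u : W) : Prop :=
  ∃ T ⊆ X.tl, T.card = 3 ∧ (∀ l ∈ T, v l ≠ 0) ∧ u ∈ X.D.U T ∧ wt (X.act u v) + 2 = wt v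

/-- The section. -/
def gam (v : Fin (n + 1) → F) : X.Ω :=
  if h : ∃ u, X.IsRed v u then (h.choose)⁻¹ • gam (X.act h.choose v) else X.base v
termination_by wt v
decreasing_by
  obtain ⟨_, _, _, _, _, hw⟩ := h.choose_spec
  omega

theorem gam_one {v : Fin (n + 1) → F} (hw : wt v = 1) {u : W} (h : X.IsBase v u) :
    X.gam v = QuotientGroup.mk u := by
  rw [gam, dif_neg, X.base_mk hw h]
  rintro ⟨_, _, _, _, _, _, h2⟩
  omega

theorem smul_mk (a b : W) : a • (QuotientGroup.mk b : X.Ω) = QuotientGroup.mk (a * b) := rfl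

/-- Equivariance for triples, on vectors of bounded weight. -/
def E (w : ℕ) : Prop :=
  ∀ T ⊆ X.tl, T.card = 3 → ∀ u ∈ X.D.U T, ∀ v, X.Un v → wt v ≤ w → wt (X.act u v) ≤ w →
    X.gam (X.act u v) = u • X.gam v

theorem E_one : X.E 1 := by
  intro T hT hc u hu v hv h1 h2
  have hv1 : wt v = 1 := by have := hv.odd; rw [Nat.odd_iff] at this; omega
  have hgv := hv.actU hT hc hu
  have hgv1 : wt (X.act u v) = 1 := by have := hgv.odd; rw [Nat.odd_iff] at this; omega
  obtain ⟨i, -, hvi, -, hz⟩ := exists_of_wS_one (S := Finset.univ) hv1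
  have hsupp : ∀ l, v l ≠ 0 → l = i := fun l hl => by
    by_contra hne; exact hl (hz l (Finset.mem_univ l) hne)
  have hiX : i ∈ X.tl := X.mem_of_wne hv.1 hvi
  by_cases hcase : i ∈ T ∨ X.k' ∈ T
  · obtain ⟨S, hPS, hS, hS5⟩ := X.exists_five (P := insert i (insert X.k' T))
      (Finset.insert_subset hiX (Finset.insert_subset X.k_mem hT)) (by
        have h3 := Finset.card_insert_le i (insert X.k' T)
        have h4 := Finset.card_insert_le X.k' T
        omega)
    have hTS : T ⊆ S := fun l hl => hPS (by simp [hl])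
    obtain ⟨a, ha, haS⟩ := X.exists_base_in hv hv1 hS (by omega) (hPS (by simp))
      (fun l hl => by rw [hsupp l hl]; exact hPS (by simp))
    obtain ⟨b, hb, hbS⟩ := X.exists_base_in hgv hgv1 hS (by omega) (hPS (by simp))
      (fun l hl => by
        by_contra hlS
        have hlT : l ∉ T := fun h => hlS (hTS h)
        rw [act, app_coord X.D.hF (X.D.π_U hu) v hlT] at hl
        exact hlS (hsupp l hl ▸ hPS (by simp)))
    rw [X.gam_one hv1 ha, X.gam_one hgv1 hb, X.smul_mk, QuotientGroup.eq]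
    refine X.mem_nx_of_fix hS (by omega) hS5.le
      (mul_mem (inv_mem hbS) (mul_mem (X.D.mem_Lam hTS hc hu) haS)) ?_
    obtain ⟨_, _, _, _, _, _, hae⟩ := ha
    obtain ⟨_, _, _, _, _, _, hbe⟩ := hb
    rw [X.act_mul, X.act_mul, hae, ← hbe, X.act_inv]
  · rw [not_or] at hcase
    have hfix : X.act u v = v := fix_of_zero (X.D.π_U hu) fun l hl => by
      by_contra h; exact hcase.1 (hsupp l h ▸ hl)
    have hd3 : 3 ≤ (X.tl \ T).card := by
      have h3 := Finset.card_sdiff_add_card_eq_card hT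
      have := X.card_tl
      have := X.hk
      omega
    obtain ⟨a, ha, haS⟩ := X.exists_base_in hv hv1 Finset.sdiff_subset hd3
      (Finset.mem_sdiff.2 ⟨X.k_mem, hcase.2⟩)
      (fun l hl => by rw [hsupp l hl]; exact Finset.mem_sdiff.2 ⟨hiX, hcase.1⟩)
    have hcomm : Commute u a := by
      refine commute_of_closure (fun y hy => ?_) haS
      obtain ⟨T', hT', hc', hy⟩ := hy
      exact X.D.commute_U hc hc' (Finset.disjoint_of_subset_right hT' Finset.disjoint_sdiff) hu hy
    rw [hfix, X.gam_one hv1 ha, X.smul_mk, hcomm.eq, QuotientGroup.eq]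
    simpa using X.D.mem_Lam (T := T) (fun l hl => mem_tailT.2 (by
      have h3 := mem_tailT.1 (hT hl)
      have : (l : ℕ) ≠ X.k := fun e => hcase.2 (by rwa [show X.k' = l from Fin.ext e.symm])
      omega)) hc hu

theorem zero_of_not_mem {S T : Finset (Fin (n + 1))} {v : Fin (n + 1) → F} {x : Fin (n + 1)}
    (hT : T ⊆ S) (hx : x ∉ T) (hz : ∀ l ∈ S, l ≠ x → v l = 0) : ∀ l ∈ T, v l = 0 :=
  fun l hl => hz l (hT hl) fun e => hx (e ▸ hl)

/-- Equivariance inside a set of at most five coordinates. -/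
theorem five {w : ℕ} (hE : X.E w) {S : Finset (Fin (n + 1))} (hS : S ⊆ X.tl) (h3 : 3 ≤ S.card)
    (h5 : S.card ≤ 5) {h : W} (hh : h ∈ X.D.Lam S) {a : Fin (n + 1) → F} (ha : X.Un a)
    (hwa : wt a ≤ w) (hwb : wt (X.act h a) ≤ w) (hodd : Odd (wS S a)) :
    X.gam (X.act h a) = h • X.gam a := by
  have norm : ∀ (j : ℕ) (c : Fin (n + 1) → F), wS S c = j → X.Un c → wt c ≤ w → Odd j →
      ∃ g ∈ X.D.Lam S, wS S (X.act g c) = 1 ∧ wt (X.act g c) ≤ w ∧
        X.gam (X.act g c) = g • X.gam c := by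
    intro j
    induction j using Nat.strong_induction_on with
    | _ j ih =>
    intro c hj hc hwc ho
    by_cases h3' : 3 ≤ wS S c
    · obtain ⟨T, hT, hTc, -, g, hg, hgw⟩ := exists_reduction X.D.hF h3'
      obtain ⟨u, hu, rfl⟩ := X.D.U_surj hTc hg
      have huS := X.D.mem_Lam hT hTc hu
      have hred : wS S (X.act u c) + 2 = wS S c := by
        have h1 := wt_split S (X.act u c)
        have h2 := wt_split S c
        rw [wS_compl_app X.D.hF (X.D.π_Lam huS)] at h1
        change wt (X.act u c) + 2 = wt c at hgw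
        omega
      have e1 := hE T (hT.trans hS) hTc u hu c hc hwc (by change wt (X.act u c) + 2 = wt c at hgw; omega)
      obtain ⟨g', hg', h1', h2', h3''⟩ := ih _ (by omega) (X.act u c) rfl (hc.act hS huS)
        (by change wt (X.act u c) + 2 = wt c at hgw; omega)
        (by rw [Nat.odd_iff] at ho ⊢; omega)
      refine ⟨g' * u, mul_mem hg' huS, ?_, ?_, ?_⟩
      · rwa [X.act_mul]
      · rwa [X.act_mul]
      · rw [X.act_mul, h3'', e1, mul_smul]
    · refine ⟨1, one_mem _, ?_, by simpa [act] using hwc, by simp [act]⟩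
      rw [Nat.odd_iff] at ho
      simp only [act, map_one, app_one]
      omega
  have hodd' : Odd (wS S (X.act h a)) := (parity_wS X.D.hF (X.D.π_Lam hh) ha.2).2 hodd
  obtain ⟨g1, hg1, a1, a2, a3⟩ := norm _ a rfl ha hwa hodd
  obtain ⟨g2, hg2, b1, b2, b3⟩ := norm _ (X.act h a) rfl (ha.act hS hh) hwb hodd'
  set h' := g2 * h * g1⁻¹ with hh'
  have hh'S : h' ∈ X.D.Lam S := mul_mem (mul_mem hg2 hh) (inv_mem hg1)
  set A := X.act g1 a with hA
  have hAB : X.act h' A = X.act g2 (X.act h a) := by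
    rw [hh', X.act_mul, X.act_mul, hA, X.act_inv]
  suffices key : X.gam (X.act h' A) = h' • X.gam A by
    rw [hAB, b3, a3, smul_smul, hh', inv_mul_cancel_right, mul_smul] at key
    exact MulAction.injective g2 key
  have hAu : X.Un A := ha.act hS hg1
  set B := X.act h' A with hB
  have hBu : X.Un B := hAu.act hS hh'S
  rw [← hAB] at b1 b2
  obtain ⟨x, hx, hAx, hAres, hAz⟩ := exists_of_wS_one a1
  obtain ⟨y, hy, hBy, hBres, hBz⟩ := exists_of_wS_one b1
  obtain ⟨T, hT1, hT2, hc⟩ := Finset.exists_subsuperset_card_eq (n := 3)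
    (Finset.insert_subset hx (Finset.singleton_subset_iff.2 hy) :
      ({x, y} : Finset (Fin (n + 1))) ⊆ S)
    (Finset.card_le_two.trans (by omega)) h3
  rcases eq_or_lt_of_le h3 with e3 | h4
  · have hTS : T = S := Finset.eq_of_subset_of_card_le hT2 (by omega)
    subst hTS
    have hU : h' ∈ X.D.U T := by
      refine (Subgroup.closure_le (X.D.U T)).2 ?_ hh'S
      rintro z ⟨T', hT', hc', hz⟩
      rwa [Finset.eq_of_subset_of_card_le hT' (by omega)] at hz
    exact hE T hS hc h' hU A hAu a2 b2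
  have hm1 : herm 2 (A x • (dd x : Fin (n + 1) → F)) (A x • dd x) = 1 :=
    unit_of_odd X.D.hF (by rw [← hAres, wt_res, a1]; decide)
  have hm2 : herm 2 (B y • (dd y : Fin (n + 1) → F)) (B y • dd y) = 1 :=
    unit_of_odd X.D.hF (by rw [← hBres, wt_res, b1]; decide)
  obtain ⟨g, hg, hge⟩ := exists_fixT_map X.D.hF (T := T) (by omega)
    ((supp T).smul_mem (A x) (dd_mem_supp (hT1 (by simp) : x ∈ T)))
    ((supp T).smul_mem (B y) (dd_mem_supp (hT1 (by simp) : y ∈ T))) hm1 hm2
  obtain ⟨m, hm, rfl⟩ := X.D.U_surj hc hg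
  have hmS : m ∈ X.D.Lam S := X.D.mem_Lam hT2 hc hm
  have hmA : X.act m A = B := by
    have e1 := app_split (X.D.π_Lam hmS) A
    have e2 := app_split (X.D.π_Lam hh'S) A
    funext l
    by_cases hl : l ∈ S
    · have : X.act m A l = (B y • (dd y : Fin (n + 1) → F)) l := by
        rw [act, e1, hAres, hge]
        simp [res, hl, congrFun hAres.symm l]
      rw [this, ← hBres, res, if_pos hl]
    · rw [act, app_coord X.D.hF (X.D.π_Lam hmS) A hl, hB, act,
        app_coord X.D.hF (X.D.π_Lam hh'S) A hl]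
  have e1 := hE T (hT2.trans hS) hc m hm A hAu a2 (by rw [hmA]; exact b2)
  rw [hmA] at e1
  set h0 := h' * m⁻¹ with hh0
  have h0S : h0 ∈ X.D.Lam S := mul_mem hh'S (inv_mem hmS)
  have h0B : X.act h0 B = B := by
    conv_lhs => rw [← hmA, hh0, X.act_mul, X.act_inv]
  have h0y : app (X.D.π h0) (dd y : Fin (n + 1) → F) = dd y := by
    have e := app_split (X.D.π_Lam h0S) B
    rw [show app (X.D.π h0) B = B from h0B, hBres, app_smul] at e
    have e' : B y • app (X.D.π h0) (dd y : Fin (n + 1) → F) = B y • dd y := by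
      linear_combination (norm := module) -e
    exact (smul_right_injective _ hBy) e'
  obtain ⟨z, hz, hze⟩ := X.D.Lam_surj (S := S.erase y) (g := X.D.π h0)
    (by rw [Finset.card_erase_of_mem hy]; omega) (fun l hl => by
      rw [Finset.mem_erase, not_and_or, not_not] at hl
      rcases hl with rfl | hl
      · exact h0y
      · exact X.D.π_Lam h0S l hl)
  have hz0 := X.D.Lam_eq X.hd h5 (X.D.Lam_mono (Finset.erase_subset _ _) hz) h0S hze
  have hstab : ∀ z ∈ X.D.Lam (S.erase y), z • X.gam B = X.gam B := by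
    intro z hz
    induction hz using Subgroup.closure_induction with
    | mem z hz =>
      obtain ⟨T', hT', hc', hz⟩ := hz
      have hfix : X.act z B = B := fix_of_zero (X.D.π_U hz)
        (zero_of_not_mem (hT'.trans (Finset.erase_subset _ _))
          (fun h => (Finset.mem_erase.1 (hT' h)).1 rfl) hBz)
      have := hE T' ((hT'.trans (Finset.erase_subset _ _)).trans hS) hc' z hz B hBu b2
        (by rw [hfix]; exact b2)
      rwa [hfix, eq_comm] at this
    | one => exact one_smul _ _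
    | mul p r _ _ hp hr => rw [mul_smul, hr, hp]
    | inv p _ hp => rw [inv_smul_eq_iff, hp]
  calc X.gam B = h0 • X.gam B := by rw [← hz0]; exact (hstab z hz).symm
    _ = h' • X.gam A := by rw [e1, smul_smul, hh0, inv_mul_cancel_right]

/-- Any reduction computes the section. -/
theorem red_eq {w : ℕ} (hE : X.E w) {v : Fin (n + 1) → F} (hv : X.Un v) (hw : wt v = w + 2)
    {u1 u2 : W} (h1 : X.IsRed v u1) (h2 : X.IsRed v u2) :
    u1⁻¹ • X.gam (X.act u1 v) = u2⁻¹ • X.gam (X.act u2 v) := by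
  obtain ⟨T1, hT1, hc1, hs1, hu1, hr1⟩ := h1
  obtain ⟨T2, hT2, hc2, hs2, hu2, hr2⟩ := h2
  by_cases hd : Disjoint T1 T2
  · have hcomm := X.D.commute_U hc1 hc2 hd hu1 hu2
    have hx : X.act u2 (X.act u1 v) = X.act u1 (X.act u2 v) := by
      rw [← X.act_mul, ← X.act_mul, hcomm.eq]
    have hm1 := X.D.π_U hu1
    have hm2 := X.D.π_U hu2
    have hwx : wt (X.act u2 (X.act u1 v)) + 2 = wt (X.act u1 v) := by
      have a1 := wt_split T2 (X.act u2 (X.act u1 v))
      rw [wS_compl_app X.D.hF hm2] at a1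
      have a2 := wt_split T2 (X.act u1 v)
      have a3 := wt_split T2 (X.act u2 v)
      rw [wS_compl_app X.D.hF hm2] at a3
      have a4 := wt_split T2 v
      have b1 : wS T2 (X.act u2 (X.act u1 v)) = wS T2 (X.act u2 v) := wS_congr fun l hl => by
        rw [hx]; exact app_coord X.D.hF hm1 _ (Finset.disjoint_right.1 hd hl)
      have b2 : wS T2 (X.act u1 v) = wS T2 v := wS_congr fun l hl =>
        app_coord X.D.hF hm1 _ (Finset.disjoint_right.1 hd hl)
      omega
    have e1 := hE T2 hT2 hc2 u2 hu2 _ (hv.actU hT1 hc1 hu1) (by omega) (by omega)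
    have e2 := hE T1 hT1 hc1 u1 hu1 _ (hv.actU hT2 hc2 hu2) (by omega) (by rw [← hx]; omega)
    rw [← hx] at e2
    rw [show X.gam (X.act u1 v) = u2⁻¹ • X.gam (X.act u2 (X.act u1 v)) by rw [e1, inv_smul_smul],
      show X.gam (X.act u2 v) = u1⁻¹ • X.gam (X.act u2 (X.act u1 v)) by rw [e2, inv_smul_smul],
      smul_smul, smul_smul, (hcomm.inv_inv).eq]
  · have hsupp : ∀ l ∈ T1 ∪ T2, v l ≠ 0 := fun l hl => by
      rcases Finset.mem_union.1 hl with h | h
      exacts [hs1 l h, hs2 l h]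
    have hsub : T1 ∪ T2 ⊆ Finset.univ.filter fun l => v l ≠ 0 := fun l hl =>
      Finset.mem_filter.2 ⟨Finset.mem_univ l, hsupp l hl⟩
    have hcard : (T1 ∪ T2).card ≤ 5 := by
      have h1 := Finset.card_union_add_card_inter T1 T2
      have h2 : 1 ≤ (T1 ∩ T2).card := by
        rw [Nat.one_le_iff_ne_zero, Ne, Finset.card_eq_zero, ← Finset.disjoint_iff_inter_eq_empty]
        exact hd
      omega
    have hge := Finset.card_le_card (Finset.subset_union_left : T1 ⊆ T1 ∪ T2)
    have hwt : (T1 ∪ T2).card ≤ wt v := Finset.card_le_card hsub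
    obtain ⟨S, hS1, hS2, hSc⟩ : ∃ S, T1 ∪ T2 ⊆ S ∧ S ⊆ (Finset.univ.filter fun l => v l ≠ 0) ∧
        (S.card = 3 ∨ S.card = 5) := by
      by_cases h : (T1 ∪ T2).card = 4
      · obtain ⟨S, a, b, c⟩ := Finset.exists_subsuperset_card_eq (n := 5) hsub (by omega) (by
          show 5 ≤ wt v
          have := hv.odd
          rw [Nat.odd_iff] at this
          omega)
        exact ⟨S, a, b, Or.inr c⟩
      · exact ⟨_, subset_rfl, hsub, by omega⟩
    have hStl : S ⊆ X.tl := fun l hl => X.mem_of_wne hv.1 (Finset.mem_filter.1 (hS2 hl)).2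
    have hu1S := X.D.mem_Lam (Finset.subset_union_left.trans hS1) hc1 hu1
    have hu2S := X.D.mem_Lam (Finset.subset_union_right.trans hS1) hc2 hu2
    have hodd : Odd (wS S (X.act u1 v)) := by
      refine (parity_wS X.D.hF (X.D.π_Lam hu1S) hv.2).2 ?_
      rw [wS, Finset.filter_true_of_mem fun l hl => (Finset.mem_filter.1 (hS2 hl)).2]
      rcases hSc with h | h <;> rw [h] <;> decide
    have hh : X.act (u2 * u1⁻¹) (X.act u1 v) = X.act u2 v := by rw [X.act_mul, X.act_inv]
    have e := X.five hE hStl (by omega) (by omega) (mul_mem hu2S (inv_mem hu1S))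
      (hv.actU hT1 hc1 hu1) (by omega) (by rw [hh]; omega) hodd
    rw [hh] at e
    rw [e, smul_smul, inv_mul_cancel_left]

theorem gam_red {w : ℕ} (hE : X.E w) {v : Fin (n + 1) → F} (hv : X.Un v) (hw : wt v = w + 2)
    {u : W} (h : X.IsRed v u) : X.gam v = u⁻¹ • X.gam (X.act u v) := by
  conv_lhs => rw [gam]
  rw [dif_pos ⟨u, h⟩]
  exact X.red_eq hE hv hw (Exists.choose_spec (p := fun u => X.IsRed v u) ⟨u, h⟩) h

theorem exists_red_in {S : Finset (Fin (n + 1))} (hS : S ⊆ X.tl) {v : Fin (n + 1) → F}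
    (h3 : 3 ≤ wS S v) : ∃ u ∈ X.D.Lam S, X.IsRed v u := by
  obtain ⟨T, hT, hc, hs, g, hg, hgw⟩ := exists_reduction X.D.hF h3
  obtain ⟨u, hu, rfl⟩ := X.D.U_surj hc hg
  exact ⟨u, X.D.mem_Lam hT hc hu, T, hT.trans hS, hc, hs, hu, hgw⟩

theorem E_step {w : ℕ} (hw : Odd w) (hE : X.E w) : X.E (w + 2) := by
  intro T hT hc u hu v hv h1 h2
  set v' := X.act u v with hv'
  have hv'u : X.Un v' := hv.actU hT hc hu
  have ov := hv.odd
  have ov' := hv'u.odd
  rw [Nat.odd_iff] at ov ov' hw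
  by_cases hsmall : wt v ≤ w ∧ wt v' ≤ w
  · exact hE T hT hc u hu v hv hsmall.1 hsmall.2
  have hm := X.D.π_U hu
  have sv := wt_split T v
  have sv' := wt_split T v'
  rw [hv', wS_compl_app X.D.hF hm, ← hv'] at sv'
  have tv := wS_le_card T v
  have tv' := wS_le_card T v'
  by_cases ht0 : wS T v = 0
  · have hz : ∀ l ∈ T, v l = 0 := fun l hl => by
      by_contra h
      rw [wS, Finset.card_eq_zero, Finset.filter_eq_empty_iff] at ht0
      exact ht0 hl h
    have hfix : v' = v := fix_of_zero hm hz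
    rw [hfix] at sv' tv' ⊢
    have hbig : wt v = w + 2 := by rw [hfix] at hsmall; omega
    obtain ⟨T', hT', hc', hs', g, hg, hgw⟩ := exists_reduction X.D.hF (S := Tᶜ) (v := v) (by omega)
    obtain ⟨u', hu', rfl⟩ := X.D.U_surj hc' hg
    have hT'tl : T' ⊆ X.tl := fun l hl => X.mem_of_wne hv.1 (hs' l hl)
    have hd : Disjoint T T' := Finset.disjoint_of_subset_right hT' disjoint_compl_right
    have hred : X.IsRed v u' := ⟨T', hT'tl, hc', hs', hu', hgw⟩
    have hcomm := X.D.commute_U hc hc' hd hu hu'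
    have hz' : ∀ l ∈ T, X.act u' v l = 0 := fun l hl => by
      rw [act, app_coord X.D.hF (X.D.π_U hu') v (Finset.disjoint_left.1 hd hl), hz l hl]
    have hfix' : X.act u (X.act u' v) = X.act u' v := fix_of_zero hm hz'
    change wt (X.act u' v) + 2 = wt v at hgw
    have e := hE T hT hc u hu (X.act u' v) (hv.actU hT'tl hc' hu') (by omega)
      (by rw [hfix']; omega)
    rw [hfix'] at e
    rw [X.gam_red hE hv hbig hred, smul_smul, (hcomm.inv_right).eq, mul_smul, ← e]
  have hpar := parity_wS X.D.hF hm hv.2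
  rw [Nat.odd_iff, Nat.odd_iff] at hpar
  change (wS T v' % 2 = 1 ↔ wS T v % 2 = 1) at hpar
  obtain ⟨S, hTS, hStl, hS5, hSv, hSb, hSb'⟩ : ∃ S, T ⊆ S ∧ S ⊆ X.tl ∧ S.card ≤ 5 ∧
      Odd (wS S v) ∧ (wt v = w + 2 → 3 ≤ wS S v) ∧ (wt v' = w + 2 → 3 ≤ wS S v') := by
    have hwe : ∀ (S : Finset (Fin (n + 1))), T ⊆ S → wS S v = wS T v + wS (S \ T) v ∧
        wS S v' = wS T v' + wS (S \ T) v := by
      intro S hS
      have hh : ∀ c : Fin (n + 1) → F, wS S c = wS T c + wS (S \ T) c := fun c => by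
        unfold wS
        rw [← Finset.card_union_of_disjoint (Finset.disjoint_filter_filter Finset.disjoint_sdiff),
          ← Finset.filter_union, Finset.union_sdiff_of_subset hS]
      refine ⟨hh v, (hh v').trans ?_⟩
      congr 1
      exact wS_congr fun l hl => app_coord X.D.hF hm v (Finset.mem_sdiff.1 hl).2
    have hout : ∀ j ≤ wS Tᶜ v, ∃ C, C.card = j ∧ C ⊆ X.tl ∧ Disjoint T C ∧ wS C v = j := by
      intro j hj
      obtain ⟨C, hC, hCc⟩ := Finset.exists_subset_card_eq hj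
      refine ⟨C, hCc, fun l hl => X.mem_of_wne hv.1 (Finset.mem_filter.1 (hC hl)).2,
        Finset.disjoint_right.2 fun l hl => Finset.mem_compl.1 (Finset.mem_filter.1 (hC hl)).1, ?_⟩
      rw [wS, Finset.filter_true_of_mem fun l hl => (Finset.mem_filter.1 (hC hl)).2, hCc]
    obtain ⟨j, hj, hj2, hb, hb'⟩ : ∃ j ≤ wS Tᶜ v, j ≤ 2 ∧
        ((wS T v + j) % 2 = 1 ∧ (wt v = w + 2 → 3 ≤ wS T v + j)) ∧
        (wt v' = w + 2 → 3 ≤ wS T v' + j) := by
      rcases Nat.lt_or_ge 2 (max (wS T v) (wS T v')) with h | h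
      · exact ⟨0, by omega⟩
      rcases Nat.lt_or_ge 1 (max (wS T v) (wS T v')) with h' | h'
      · exact ⟨1, by omega⟩
      · exact ⟨2, by omega⟩
    obtain ⟨C, hCc, hCtl, hTC, hCw⟩ := hout j hj
    obtain ⟨a, b⟩ := hwe (T ∪ C) Finset.subset_union_left
    rw [Finset.union_sdiff_cancel_left hTC, hCw] at a b
    refine ⟨T ∪ C, Finset.subset_union_left, Finset.union_subset hT hCtl, ?_, ?_, ?_, ?_⟩
    · rw [Finset.card_union_of_disjoint hTC]; omega
    · rw [a, Nat.odd_iff]; exact hb.1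
    · rw [a]; exact hb.2
    · rw [b]; exact hb'
  have h3 : 3 ≤ S.card := hc ▸ Finset.card_le_card hTS
  have red : ∀ c, X.Un c → wt c ≤ w + 2 → (wt c = w + 2 → 3 ≤ wS S c) →
      ∃ g ∈ X.D.Lam S, wt (X.act g c) ≤ w ∧ X.gam (X.act g c) = g • X.gam c := by
    intro c hcu hcw hcb
    by_cases hlt : wt c ≤ w
    · exact ⟨1, one_mem _, by simpa [act] using hlt, by simp [act]⟩
    · have : wt c = w + 2 := by
        have oc := hcu.odd
        rw [Nat.odd_iff] at oc
        omega
      obtain ⟨g, hg, hr⟩ := X.exists_red_in hStl (hcb this)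
      have e := X.gam_red hE hcu this hr
      obtain ⟨_, _, _, _, _, hgw⟩ := hr
      exact ⟨g, hg, by omega, by rw [e, smul_inv_smul]⟩
  obtain ⟨g1, hg1, a1, a2⟩ := red v hv h1 hSb
  obtain ⟨g2, hg2, b1, b2⟩ := red v' hv'u h2 hSb'
  have hh : X.act (g2 * u * g1⁻¹) (X.act g1 v) = X.act g2 v' := by
    rw [X.act_mul, X.act_mul, X.act_inv]
  have e := X.five hE hStl h3 hS5 (mul_mem (mul_mem hg2 (X.D.mem_Lam hTS hc hu)) (inv_mem hg1))
    (hv.act hStl hg1) a1 (by rw [hh]; exact b1) ((parity_wS X.D.hF (X.D.π_Lam hg1) hv.2).2 hSv)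
  rw [hh, b2, a2, smul_smul, inv_mul_cancel_right, mul_smul] at e
  exact MulAction.injective g2 e

theorem E_all (j : ℕ) : X.E (2 * j + 1) := by
  induction j with
  | zero => exact X.E_one
  | succ j ih => exact X.E_step ⟨j, rfl⟩ ih

theorem equivariant {x : W} (hx : x ∈ X.D.Lam X.tl) :
    ∀ v, X.Un v → X.gam (X.act x v) = x • X.gam v := by
  induction hx using Subgroup.closure_induction with
  | mem x hx =>
    obtain ⟨T, hT, hc, hx⟩ := hx
    intro v hv
    exact X.E_all (max (wt v) (wt (X.act x v))) T hT hc x hx v hv (by omega) (by omega)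
  | one => intro v _; simp [act]
  | mul a b ha hb iha ihb =>
    intro v hv
    rw [X.act_mul, iha _ (hv.act subset_rfl hb), ihb v hv, mul_smul]
  | inv a ha iha =>
    intro v hv
    have := iha (X.act a⁻¹ v) (hv.act subset_rfl (inv_mem ha))
    rw [X.act_inv'] at this
    rw [this, inv_smul_smul]

theorem kernel_step {x : W} (hx : x ∈ X.D.Lam X.tl) (h1 : X.D.π x = 1) : x ∈ X.D.Lam X.nx := by
  have he1 : wt X.e = 1 := by
    rw [wt, wS, Finset.card_eq_one]
    refine ⟨X.k', Finset.eq_singleton_iff_unique_mem.2 ⟨by simp [dd_self], fun l hl => ?_⟩⟩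
    by_contra hne
    exact (Finset.mem_filter.1 hl).2 (dd_ne hne)
  obtain ⟨T, hT1, hT2, hc⟩ := Finset.exists_subsuperset_card_eq (n := 3)
    (Finset.singleton_subset_iff.2 X.k_mem) (by simp) (by rw [X.card_tl]; have := X.hk; omega)
  have hb : X.IsBase X.e 1 := ⟨T, hT2, hc, hT1 (by simp), fun l hl => by
    by_contra hne
    exact hl (dd_ne fun e => hne (e ▸ hT1 (by simp))), one_mem _, by simp [act]⟩
  have e := X.equivariant hx _ X.unit_e
  rw [act, h1, app_one, X.gam_one he1 hb, X.smul_mk, QuotientGroup.eq] at e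
  simpa using e

end TwoCtx

/-- In characteristic two over the field of four elements the amalgam is faithful. -/
theorem Seed.injective_two (D : Seed F 2 n d 3 W) (hd : d + 5 = n + 1) :
    Function.Injective D.π := by
  have key : ∀ (j k : ℕ), k + j = n + 1 → ∀ x ∈ D.Lam (tailT n k), D.π x = 1 → x = 1 := by
    intro j
    induction j with
    | zero =>
      intro k hk x hx h
      refine D.Lam_eq hd ?_ hx (one_mem _) (by rw [h, map_one])
      have : tailT n k = ∅ := by ext l; simp [mem_tailT]; omega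
      simp [this]
    | succ j ih =>
      intro k hk x hx h
      by_cases h6 : k + 6 ≤ n + 1
      · exact ih (k + 1) (by omega) x (TwoCtx.kernel_step ⟨D, hd, k, h6⟩ hx h) h
      · refine D.Lam_eq hd ?_ hx (one_mem _) (by rw [h, map_one])
        rw [card_tailT k (by omega)]
        omega
  rw [injective_iff_map_eq_one]
  intro x hx
  refine key (n + 1) 0 (by omega) x ?_ hx
  rw [show tailT n 0 = Finset.univ by ext l; simp [mem_tailT], D.Lam_univ hd]
  exact Subgroup.mem_top x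

end

end Cfsg.Agent.SUPres
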