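import Cfsg.Agent.SUPres.Phan
import Cfsg.Agent.SUPres.Two
import Cfsg.Agent.SUPres.Glue
import Cfsg.Agent.SUPres.Transport
import Cfsg.Agent.ShortPres.Tools

/-!
Six generators and at most 39 relators for the special unitary groups, given the small blocks.
-/

set_option autoImplicit false

open scoped Classical

namespace Cfsg.Agent.SUPres

open Equiv Cfsg.Agent.Classical.U Cfsg.Agent.PhanSU
open GKKL (HasPres)

universe u

noncomputable section

theorem alt_three_gen_big (N : ℕ) (h : 6 ≤ N) :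
    ∃ v : Fin 3 → alternatingGroup (Fin N), HasPres v 8 := by
  by_cases hn : N = 9 ∨ 13 ≤ N
  · obtain ⟨⟨v, -, hv⟩, -⟩ := GKKL.pres_glue N hn
    exact ⟨v, hv.mono (by omega)⟩
  · obtain ⟨⟨v, -, hv⟩, -⟩ := GKKL.pres_small N (by omega)
    obtain ⟨w, hw⟩ := ShortPres.hasPres_pad hv 1
    exact ⟨w, hw.mono (by omega)⟩

theorem alt_three_gen_five : ∃ v : Fin 3 → alternatingGroup (Fin 5), HasPres v 4 := by
  obtain ⟨⟨v, -, hv⟩, -⟩ := GKKL.pres_small 5 le_rfl
  obtain ⟨w, hw⟩ := ShortPres.hasPres_pad hv 1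
  exact ⟨w, hw.mono (by norm_num)⟩

theorem alt_three_gen_four : ∃ v : Fin 3 → alternatingGroup (Fin 4), HasPres v 5 := by
  obtain ⟨v, hv⟩ := ShortPres.alt_four_four
  exact ShortPres.hasPres_pad hv 1

/-- An involution exchanging the last two pairs. -/
theorem exists_pair_swap {n : ℕ} (h : 3 ≤ n) :
    ∃ τ : alternatingGroup (Fin (n + 1)), τ * τ = 1 ∧
      Disjoint (lastT n 2) ((lastT n 2).image τ.1) ∧ τ ∈ altIn (tailT n (n - 3)) ∧
      (lastT n 2).image τ.1 ⊆ tailT n (n - 3) := by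
  let a : Fin (n + 1) := ⟨n, by omega⟩
  let a' : Fin (n + 1) := ⟨n - 2, by omega⟩
  let b : Fin (n + 1) := ⟨n - 1, by omega⟩
  let b' : Fin (n + 1) := ⟨n - 3, by omega⟩
  have h1 : a ≠ a' := Fin.ne_of_val_ne (by simp only [a, a']; omega)
  have h2 : b ≠ b' := Fin.ne_of_val_ne (by simp only [b, b']; omega)
  have hab : a ≠ b := Fin.ne_of_val_ne (by simp only [a, b]; omega)
  have hab' : a ≠ b' := Fin.ne_of_val_ne (by simp only [a, b']; omega)
  have ha'b : a' ≠ b := Fin.ne_of_val_ne (by simp only [a', b]; omega)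
  have ha'b' : a' ≠ b' := Fin.ne_of_val_ne (by simp only [a', b']; omega)
  have hc : Commute (swap a a') (swap b b') := Perm.Disjoint.commute fun x => by
    by_cases hx : x = a ∨ x = a'
    · rcases hx with rfl | rfl
      · exact Or.inr (swap_apply_of_ne_of_ne hab hab')
      · exact Or.inr (swap_apply_of_ne_of_ne ha'b ha'b')
    · push Not at hx
      exact Or.inl (swap_apply_of_ne_of_ne hx.1 hx.2)
  have hlast : lastT n 2 = {a, b} := by
    ext l
    simp only [mem_tailT, Finset.mem_insert, Finset.mem_singleton, Fin.ext_iff, a, b]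
    omega
  have himg : (lastT n 2).image (swap a a' * swap b b') = {a', b'} := by
    rw [hlast]
    simp [Finset.image_insert, swap_apply_of_ne_of_ne hab hab', swap_apply_of_ne_of_ne hab'.symm ha'b'.symm]
  refine ⟨⟨swap a a' * swap b b', Perm.mem_alternatingGroup.2
    (by rw [map_mul, Perm.sign_swap h1, Perm.sign_swap h2]; rfl)⟩, Subtype.ext ?_, ?_, fun l hl => ?_, ?_⟩
  · show swap a a' * swap b b' * (swap a a' * swap b b') = 1
    rw [hc.symm.mul_mul_mul_comm, swap_mul_self, swap_mul_self, one_mul]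
  · rw [himg, hlast]
    simp [h1, h2, hab'.symm, ha'b, Ne.symm hab', h2.symm, h1.symm, ha'b.symm, hab, ha'b']
  · rw [mem_tailT] at hl
    show (swap a a' * swap b b') l = l
    have e1 : swap b b' l = l := swap_apply_of_ne_of_ne
      (Fin.ne_of_val_ne (show (l : ℕ) ≠ n - 1 by omega))
      (Fin.ne_of_val_ne (show (l : ℕ) ≠ n - 3 by omega))
    have e2 : swap a a' l = l := swap_apply_of_ne_of_ne
      (Fin.ne_of_val_ne (show (l : ℕ) ≠ n by omega))
      (Fin.ne_of_val_ne (show (l : ℕ) ≠ n - 2 by omega))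
    rw [Perm.mul_apply, e1, e2]
  · rw [himg]
    intro l hl
    simp only [Finset.mem_insert, Finset.mem_singleton] at hl
    rw [mem_tailT]
    rcases hl with rfl | rfl
    · show n - 3 ≤ n - 2; omega
    · exact le_rfl

variable {F : Type u} [Field F] {q : ℕ}

/-- The small blocks needed. -/
structure Blocks (F : Type u) [Field F] (q : ℕ) : Prop where
  su3 : 4 ≤ q → ∃ v : Fin 3 → Cfsg.SU 3 F q, HasPres v 23
  su4 : q ≤ 3 → ∃ v : Fin 3 → Cfsg.SU 4 F q, HasPres v 25
  su5 : q = 2 → ∃ v : Fin 3 → Cfsg.SU 5 F q, HasPres v 20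
  gen3 : q = 2 → ∃ g : Fin 2 → Sug 3 F q, Subgroup.closure (Set.range g) = ⊤

theorem sug_main [Finite F] (hF : SqField F q) (B : Blocks F q) (n : ℕ) (hn : 3 ≤ n) :
    ∃ v : Fin (3 + 3) → Sug (n + 1) F q, HasPres v (if n ≤ 4 then 35 else 39) := by
  have hq := hF.one_lt
  obtain ⟨g2, hg2⟩ := sug_two_gen hF
  have hA : ∃ v : Fin 3 → alternatingGroup (Fin (n + 1)),
      HasPres v (if n = 3 then 5 else if n = 4 then 4 else 8) := by
    rcases (show n = 3 ∨ n = 4 ∨ 5 ≤ n by omega) with rfl | rfl | h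
    · exact alt_three_gen_four
    · exact alt_three_gen_five
    · rw [if_neg (by omega), if_neg (by omega)]
      exact alt_three_gen_big _ (by omega)
  obtain ⟨vA, hvA⟩ := hA
  by_cases h4 : 4 ≤ q
  · obtain ⟨vB, hvB⟩ := B.su3 h4
    obtain ⟨τ, hinv, hdis, -, -⟩ := exists_pair_swap (n := n) hn
    obtain ⟨v, hv⟩ := pres_of_blocks (b := 3) (d := n - 2) (r := 2) hF (by omega) (by omega) le_rfl
      (by omega) (by omega) hvA (hasPres_equiv hvB (suEquiv 3 F q)) g2 hg2 τ hdis
      [(0, 0), (1, 1), (0, 1)]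
      (Or.inr fun i j => by fin_cases i <;> fin_cases j <;> simp [hinv])
      (fun W _ D => D.bijective_pairs (by omega) (Or.inl ⟨h4, by omega⟩))
    refine ⟨v, hv.mono ?_⟩
    rcases (show n = 3 ∨ n = 4 ∨ 5 ≤ n by omega) with rfl | rfl | h
    · simp
    · simp
    · simp only [List.length_cons, List.length_nil]
      split_ifs <;> omega
  by_cases h3 : n = 3
  · subst h3
    obtain ⟨vB, hvB⟩ := B.su4 (by omega)
    obtain ⟨w, hw⟩ := ShortPres.hasPres_pad (hasPres_equiv hvB (suEquiv 4 F q)) 3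
    exact ⟨w, hw.mono (by norm_num)⟩
  by_cases hq3 : q = 3
  · obtain ⟨vB, hvB⟩ := B.su4 (by omega)
    obtain ⟨τ, -, hdis, hin, hsub⟩ := exists_pair_swap (n := n) hn
    obtain ⟨v, hv⟩ := pres_of_blocks (b := 4) (d := n - 3) (r := 2) hF (by omega) (by omega) le_rfl
      (by omega) (by omega) hvA (hasPres_equiv hvB (suEquiv 4 F q)) g2 hg2 τ hdis
      [] (Or.inl ⟨hin, hsub⟩)
      (fun W _ D => D.bijective_pairs (by omega) (Or.inr (by omega)))
    refine ⟨v, hv.mono ?_⟩
    rcases (show n = 4 ∨ 5 ≤ n by omega) with rfl | h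
    · simp
    · simp only [List.length_nil]
      split_ifs <;> omega
  have hq2 : q = 2 := by omega
  subst hq2
  by_cases h5 : n = 4
  · subst h5
    obtain ⟨vB, hvB⟩ := B.su5 rfl
    obtain ⟨w, hw⟩ := ShortPres.hasPres_pad (hasPres_equiv hvB (suEquiv 5 F 2)) 3
    exact ⟨w, hw.mono (by norm_num)⟩
  obtain ⟨vB, hvB⟩ := B.su5 rfl
  obtain ⟨g3, hg3⟩ := B.gen3 rfl
  have hcard : (lastT n 3).card = 3 := card_lastT (by omega) (by omega)
  obtain ⟨τ, hτ⟩ := exists_even_image (S := lastT n 3)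
    (T := tailT n (n - 5) \ lastT n 3) (by
      rw [Finset.card_sdiff_of_subset (tailT_antitone (by omega)), hcard, card_tailT (n - 5) (by omega)]
      omega) (by omega)
  obtain ⟨v, hv⟩ := pres_of_blocks (b := 5) (d := n - 4) (r := 3) hF (by omega) (by omega) (by omega)
    (by omega) (by omega) hvA (hasPres_equiv hvB (suEquiv 5 F 2)) g3 hg3 τ
    (by rw [hτ]; exact Finset.disjoint_sdiff)
    [(0, 0), (0, 1), (1, 0), (1, 1)]
    (Or.inr fun i j => by fin_cases i <;> fin_cases j <;> simp)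
    (fun W _ D => ⟨D.injective_two (by omega), fun y => by
      obtain ⟨x, -, hx⟩ := D.Lam_surj (S := tailT n 0) (by rw [card_tailT _ (by omega)]; omega)
        (fixT_tail_zero (F := F) (q := 2) (n := n) ▸ Subgroup.mem_top y)
      exact ⟨x, hx⟩⟩)
  refine ⟨v, hv.mono ?_⟩
  simp only [List.length_cons, List.length_nil]
  split_ifs <;> omega

/-- Presentations of `SU` and `PSU` in dimension at least four. -/
theorem su_main [Finite F] (hF : SqField F q) (B : Blocks F q) (n : ℕ) (hn : 4 ≤ n) :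
    (∃ v : Fin 6 → Cfsg.SU n F q, HasPres v (if n ≤ 5 then 35 else 39)) ∧
      ∃ v : Fin 6 → Cfsg.PSU n F q, HasPres v (if n ≤ 5 then 36 else 40) := by
  obtain ⟨m, rfl⟩ : ∃ m, n = m + 1 := ⟨n - 1, by omega⟩
  obtain ⟨v, hv⟩ := sug_main hF B m (by omega)
  have h := hasPres_equiv hv (suEquiv (m + 1) F q).symm
  have h' : HasPres (fun i => (suEquiv (m + 1) F q).symm (v i)) (if m + 1 ≤ 5 then 35 else 39) :=
    h.mono (by split_ifs <;> omega)
  refine ⟨⟨_, h'⟩, ?_⟩
  obtain ⟨w, hw⟩ := psu_of_su hF (by omega) h'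
  exact ⟨w, hw.mono (by split_ifs <;> omega)⟩

end

end Cfsg.Agent.SUPres
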