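import Cfsg.Agent.PhanSU.Amalgam
import Cfsg.Agent.SUPres.Perm

/-!
A group generated by an alternating group and a copy of a small unitary group: the conjugates of
the small coordinate subgroups.
-/

set_option autoImplicit false

namespace Cfsg.Agent.SUPres

open Equiv Cfsg.Agent.Classical.U Cfsg.Agent.PhanSU

universe u v

noncomputable section

/-- The last `r` coordinates. -/
abbrev lastT (n r : ℕ) : Finset (Fin (n + 1)) := tailT n (n + 1 - r)

theorem card_lastT {n r : ℕ} (h : r ≤ n + 1) (h0 : 1 ≤ r) : (lastT n r).card = r := by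
  rw [lastT, card_tailT _ (by omega)]; omega

/-- The data of the amalgam. -/
structure Seed (F : Type u) [Field F] (q n d r : ℕ) (W : Type v) [Group W] where
  hF : SqField F q
  two_le : 2 ≤ r
  hdr : d + r ≤ n + 1
  π : W →* Sug (n + 1) F q
  P : alternatingGroup (Fin (n + 1)) →* W
  IB : Subgroup W
  π_P : ∀ σ, π (P σ) = pmU σ
  IB_inj : ∀ x ∈ IB, π x = 1 → x = 1
  IB_mem : ∀ x ∈ IB, π x ∈ fixT (tailT n d)
  IB_surj : ∀ g ∈ (fixT (tailT n d) : Subgroup (Sug (n + 1) F q)), ∃ x ∈ IB, π x = g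
  hA : ∀ σ ∈ altIn (tailT n d), P σ ∈ IB
  hST : ∀ τ : alternatingGroup (Fin (n + 1)), (lastT n r).image τ.1 = lastT n r →
    ∀ x ∈ IB, π x ∈ fixT (lastT n r) → P τ * x * (P τ)⁻¹ ∈ IB
  hC : 2 * r ≤ n + 1 → ∃ τ : alternatingGroup (Fin (n + 1)),
    Disjoint (lastT n r) ((lastT n r).image τ.1) ∧
      ∀ x ∈ IB, π x ∈ fixT (lastT n r) → ∀ y ∈ IB, π y ∈ fixT (lastT n r) →
        Commute x (P τ * y * (P τ)⁻¹)
  gen : P.range ⊔ IB = ⊤

namespace Seed

variable {F : Type u} [Field F] {q n d r : ℕ} {W : Type v} [Group W] (D : Seed F q n d r W)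

/-- The conjugate of the small group by an even permutation. -/
def C (τ : alternatingGroup (Fin (n + 1))) : Subgroup W :=
  D.IB.comap (MulAut.conj (D.P τ)⁻¹).toMonoidHom

theorem mem_C {τ : alternatingGroup (Fin (n + 1))} {x : W} :
    x ∈ D.C τ ↔ (D.P τ)⁻¹ * x * D.P τ ∈ D.IB := by
  simp [C]

theorem mem_C_conj {τ : alternatingGroup (Fin (n + 1))} {x : W} (hx : x ∈ D.IB) :
    D.P τ * x * (D.P τ)⁻¹ ∈ D.C τ := by
  rw [mem_C]
  simpa [mul_assoc] using hx

theorem C_inj {τ : alternatingGroup (Fin (n + 1))} {x : W} (hx : x ∈ D.C τ) (h : D.π x = 1) :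
    x = 1 := by
  have h1 := D.IB_inj _ (D.mem_C.1 hx) (by rw [map_mul, map_mul, h, map_inv, mul_one, inv_mul_cancel])
  have : x = D.P τ * ((D.P τ)⁻¹ * x * D.P τ) * (D.P τ)⁻¹ := by group
  rw [this, h1, mul_one, mul_inv_cancel]

theorem C_eq {τ : alternatingGroup (Fin (n + 1))} {x y : W} (hx : x ∈ D.C τ) (hy : y ∈ D.C τ)
    (h : D.π x = D.π y) : x = y :=
  inv_mul_eq_one.1 (D.C_inj (mul_mem (inv_mem hx) hy) (by rw [map_mul, map_inv, h, inv_mul_cancel]))

include D in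
theorem lastT_card : (lastT n r).card = r :=
  card_lastT (by have := D.hdr; omega) (by have := D.two_le; omega)

include D in
theorem lastT_sub : lastT n r ⊆ tailT n d := tailT_antitone (by have := D.hdr; omega)

/-- The lift of the unitary group of a small coordinate set. -/
def U (T : Finset (Fin (n + 1))) : Subgroup W :=
  if h : ∃ τ : alternatingGroup (Fin (n + 1)), (lastT n r).image τ.1 = T then
    D.C h.choose ⊓ (fixT T).comap D.π
  else ⊥

include D in
theorem exists_image {T : Finset (Fin (n + 1))} (hT : T.card = r) :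
    ∃ τ : alternatingGroup (Fin (n + 1)), (lastT n r).image τ.1 = T :=
  exists_even_image (by rw [D.lastT_card, hT]) (by rw [D.lastT_card]; have := D.two_le; omega)

theorem C_indep {σ τ : alternatingGroup (Fin (n + 1))} {T : Finset (Fin (n + 1))}
    (hσ : (lastT n r).image σ.1 = T) (hτ : (lastT n r).image τ.1 = T) {x : W}
    (hx : x ∈ D.C σ) (hπ : D.π x ∈ fixT T) : x ∈ D.C τ := by
  have hρ : (lastT n r).image (τ⁻¹ * σ).1 = lastT n r := by
    rw [image_coe_mul, hσ]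
    exact image_inv_eq hτ
  have hm : D.π ((D.P σ)⁻¹ * x * D.P σ) ∈ fixT (lastT n r) := by
    rw [map_mul, map_mul, map_inv, D.π_P]
    exact conj_inv_mem_fixT σ (hσ ▸ hπ)
  have h := D.hST (τ⁻¹ * σ) hρ _ (D.mem_C.1 hx) hm
  rw [mem_C]
  convert h using 1
  rw [map_mul, map_inv]
  group

theorem mem_U {T : Finset (Fin (n + 1))} {τ : alternatingGroup (Fin (n + 1))}
    (hτ : (lastT n r).image τ.1 = T) {x : W} :
    x ∈ D.U T ↔ x ∈ D.C τ ∧ D.π x ∈ fixT T := by
  have h : ∃ σ : alternatingGroup (Fin (n + 1)), (lastT n r).image σ.1 = T := ⟨τ, hτ⟩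
  rw [U, dif_pos h, Subgroup.mem_inf, Subgroup.mem_comap]
  exact ⟨fun ⟨a, b⟩ => ⟨D.C_indep h.choose_spec hτ a b, b⟩,
    fun ⟨a, b⟩ => ⟨D.C_indep hτ h.choose_spec a b, b⟩⟩

theorem π_U {T : Finset (Fin (n + 1))} {x : W} (hx : x ∈ D.U T) : D.π x ∈ fixT T := by
  by_cases h : ∃ σ : alternatingGroup (Fin (n + 1)), (lastT n r).image σ.1 = T
  · exact ((D.mem_U h.choose_spec).1 hx).2
  · rw [U, dif_neg h, Subgroup.mem_bot] at hx
    rw [hx, map_one]
    exact one_mem _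

theorem U_surj {T : Finset (Fin (n + 1))} (hT : T.card = r) {g : Sug (n + 1) F q}
    (hg : g ∈ fixT T) : ∃ x ∈ D.U T, D.π x = g := by
  obtain ⟨τ, hτ⟩ := D.exists_image hT
  obtain ⟨y, hy, hye⟩ := D.IB_surj _ (fixT_mono D.lastT_sub (conj_inv_mem_fixT τ (hτ ▸ hg)))
  have he : D.π (D.P τ * y * (D.P τ)⁻¹) = g := by
    rw [map_mul, map_mul, map_inv, hye, D.π_P]; group
  exact ⟨_, (D.mem_U hτ).2 ⟨D.mem_C_conj hy, he ▸ hg⟩, he⟩

theorem conj_U (σ : alternatingGroup (Fin (n + 1))) {T : Finset (Fin (n + 1))} (hT : T.card = r)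
    {x : W} (hx : x ∈ D.U T) : D.P σ * x * (D.P σ)⁻¹ ∈ D.U (T.image σ.1) := by
  obtain ⟨τ, hτ⟩ := D.exists_image hT
  obtain ⟨h1, h2⟩ := (D.mem_U hτ).1 hx
  refine (D.mem_U (τ := σ * τ) (by rw [image_coe_mul, hτ])).2 ⟨?_, ?_⟩
  · rw [mem_C] at h1 ⊢
    convert h1 using 1
    rw [map_mul]
    group
  · rw [map_mul, map_mul, map_inv, D.π_P]
    exact conj_mem_fixT σ h2

theorem U_le_IB {T : Finset (Fin (n + 1))} (hT : T.card = r) (hB : T ⊆ tailT n d) :
    D.U T ≤ D.IB := fun x hx => by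
  obtain ⟨ρ, hρ, hρi⟩ := exists_altIn_image (S := lastT n r) (T := T) (B := tailT n d)
    (by rw [D.lastT_card, hT]) (by rw [D.lastT_card]; have := D.two_le; omega) D.lastT_sub hB
  have h := D.mem_C.1 ((D.mem_U hρi).1 hx).1
  have he : x = D.P ρ * ((D.P ρ)⁻¹ * x * D.P ρ) * (D.P ρ)⁻¹ := by group
  rw [he]
  exact mul_mem (mul_mem (D.hA ρ hρ) h) (inv_mem (D.hA ρ hρ))

theorem U_le_C {T : Finset (Fin (n + 1))} (hT : T.card = r)
    {τ : alternatingGroup (Fin (n + 1))} (hB : T ⊆ (tailT n d).image τ.1) :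
    D.U T ≤ D.C τ := fun x hx => by
  rw [mem_C]
  have h := D.conj_U τ⁻¹ hT hx
  rw [map_inv, inv_inv] at h
  refine D.U_le_IB ?_ ?_ h
  · rw [Finset.card_image_of_injective _ (Equiv.injective _), hT]
  · intro y hy
    have := Finset.image_subset_image (f := (τ⁻¹).1) hB hy
    rwa [image_inv_eq rfl] at this

theorem mem_U_of_mem_IB {T : Finset (Fin (n + 1))} (hT : T.card = r) (hB : T ⊆ tailT n d) {x : W}
    (hx : x ∈ D.IB) (hπ : D.π x ∈ fixT T) : x ∈ D.U T := by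
  obtain ⟨y, hy, hye⟩ := D.U_surj hT hπ
  have := inv_mul_eq_one.1 (D.IB_inj _ (mul_mem (inv_mem (D.U_le_IB hT hB hy)) hx)
    (by rw [map_mul, map_inv, hye, inv_mul_cancel]))
  exact this ▸ hy

theorem commute_U {T T' : Finset (Fin (n + 1))} (hT : T.card = r) (hT' : T'.card = r)
    (hd : Disjoint T T') {x y : W} (hx : x ∈ D.U T) (hy : y ∈ D.U T') : Commute x y := by
  obtain ⟨τ0, h0, hc⟩ := D.hC (by
    have := Finset.card_le_univ (T ∪ T')
    rw [Finset.card_union_of_disjoint hd, Fintype.card_fin] at this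
    omega)
  obtain ⟨σ, hσ, hσ'⟩ := exists_even_image_two (T := T) (T' := T') h0 hd
    (by rw [D.lastT_card, hT])
    (by rw [Finset.card_image_of_injective _ (Equiv.injective _), D.lastT_card, hT'])
    (by rw [D.lastT_card]; have := D.two_le; omega)
  have hσ'' : (lastT n r).image (σ * τ0).1 = T' := by rw [image_coe_mul, hσ']
  obtain ⟨h1, h2⟩ := (D.mem_U hσ).1 hx
  obtain ⟨h3, h4⟩ := (D.mem_U hσ'').1 hy
  have e1 : D.π ((D.P σ)⁻¹ * x * D.P σ) ∈ fixT (lastT n r) := by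
    rw [map_mul, map_mul, map_inv, D.π_P]; exact conj_inv_mem_fixT σ (hσ ▸ h2)
  have e2 : D.π ((D.P (σ * τ0))⁻¹ * y * D.P (σ * τ0)) ∈ fixT (lastT n r) := by
    rw [map_mul D.π, map_mul D.π, map_inv, D.π_P]; exact conj_inv_mem_fixT (σ * τ0) (hσ'' ▸ h4)
  have key := (hc _ (D.mem_C.1 h1) e1 _ (D.mem_C.1 h3) e2).map (MulAut.conj (D.P σ)).toMonoidHom
  simp only [MulEquiv.coe_toMonoidHom, MulAut.conj_apply, map_mul D.P] at key
  convert key using 1 <;> group

end Seed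

end

end Cfsg.Agent.SUPres
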