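import Cfsg.Agent.PhanSU.Main
import Cfsg.Agent.SUPres.Seed

/-!
The amalgam of pairs: faithfulness through the Phan presentation of the unitary group.
-/

set_option autoImplicit false

open scoped Classical

namespace Cfsg.Agent.SUPres

open Equiv Cfsg.Agent.Classical.U Cfsg.Agent.PhanSU
open GKKL (altOn cyc3)

universe u v

noncomputable section

variable {F : Type u} [Field F] {q n d : ℕ} {W : Type v} [Group W]

theorem card_pairT {i : ℕ} (hi : i < n) : (pairT n i).card = 2 := by
  rw [show pairT n i = {(⟨i, by omega⟩ : Fin (n + 1)), ⟨i + 1, by omega⟩} by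
    ext l; simp [mem_pairT, Fin.ext_iff]]
  exact Finset.card_pair (fun e => by simpa using congrArg Fin.val e)

theorem disjoint_pairT {i j : ℕ} (h : i + 2 ≤ j) : Disjoint (pairT n i) (pairT n j) :=
  Finset.disjoint_left.2 fun l a b => by
    rw [mem_pairT] at a b; omega

theorem tailT_lastT_two : lastT n 2 = pairT n (n - 1) ∨ n = 0 := by
  rcases Nat.eq_zero_or_pos n with h | h
  · exact Or.inr h
  · refine Or.inl ?_
    ext l; rw [mem_tailT, mem_pairT]; omega

/-- Shifting the last window of coordinates. -/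
theorem exists_shift (hd : d + 3 = n + 1 ∨ d + 4 = n + 1) {i : ℕ} (hi : i + 2 ≤ n) :
    ∃ τ : alternatingGroup (Fin (n + 1)), tripT n i ⊆ (tailT n d).image τ.1 ∧
      ∀ j, d ≤ j → j < n → ∃ j' < n, (pairT n j).image τ.1 = pairT n j' := by
  by_cases hid : d ≤ i
  · refine ⟨1, fun l hl => ?_, fun j _ hj => ⟨j, hj, ?_⟩⟩
    · simp only [tripT, Finset.mem_filter] at hl
      simp only [OneMemClass.coe_one, Perm.coe_one, Finset.image_id, mem_tailT]
      omega
    · simp
  by_cases hd2 : 2 ≤ d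
  · let e : {l : Fin (n + 1) // d ≤ (l : ℕ)} ≃
        {l : Fin (n + 1) // i ≤ (l : ℕ) ∧ (l : ℕ) < i + (n + 1 - d)} :=
      { toFun := fun l => ⟨⟨l.1 - (d - i), by omega⟩, by
          have := l.2; have := l.1.2; constructor <;> simp only <;> omega⟩
        invFun := fun l => ⟨⟨l.1 + (d - i), by have := l.2; omega⟩, by
          have := l.2; simp only; omega⟩
        left_inv := fun l => Subtype.ext (Fin.ext (by have := l.2; simp only; omega))
        right_inv := fun l => Subtype.ext (Fin.ext (by simp only; omega)) }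
    obtain ⟨τ, hτ, -⟩ := exists_even_of_perm e.extendSubtype
      (T := Finset.univ.filter fun l : Fin (n + 1) => (l : ℕ) < d) (Finset.one_lt_card.2
        ⟨⟨0, by omega⟩, by simp; omega, ⟨1, by omega⟩, by simp; omega, by simp [Fin.ext_iff]⟩)
    have hval : ∀ l : Fin (n + 1), d ≤ (l : ℕ) → ((τ.1 l : Fin (n + 1)) : ℕ) = l - (d - i) := fun l hl => by
      rw [hτ l (by simp; omega), Equiv.extendSubtype_apply_of_mem _ l hl]
      rfl
    refine ⟨τ, fun l hl => Finset.mem_image.2 ?_, fun j hj hjn => ⟨j - (d - i), by omega, ?_⟩⟩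
    · simp only [tripT, Finset.mem_filter] at hl
      refine ⟨⟨l + (d - i), by omega⟩, mem_tailT.2 (by simp only; omega), Fin.ext ?_⟩
      rw [hval _ (by simp only; omega)]
      simp only; omega
    · ext l
      rw [Finset.mem_image, mem_pairT]
      constructor
      · rintro ⟨x, hx, rfl⟩
        rw [mem_pairT] at hx
        rw [hval x (by omega)]
        omega
      · intro hl
        refine ⟨⟨l + (d - i), by omega⟩, mem_pairT.2 (by simp only; omega), Fin.ext ?_⟩
        rw [hval _ (by simp only; omega)]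
        simp only; omega
  · obtain rfl : d = 1 := by omega
    obtain rfl : i = 0 := by omega
    rcases hd with h | h
    · obtain rfl : n = 3 := by omega
      refine ⟨⟨Fin.revPerm, Perm.mem_alternatingGroup.2 (by decide)⟩, by decide, fun j hj hj' => ?_⟩
      interval_cases j
      · exact ⟨1, by omega, by decide⟩
      · exact ⟨0, by omega, by decide⟩
    · obtain rfl : n = 4 := by omega
      refine ⟨⟨(finRotate 5).symm, Perm.mem_alternatingGroup.2 (by decide)⟩, by decide,
        fun j hj hj' => ⟨j - 1, by omega, ?_⟩⟩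
      interval_cases j <;> decide

theorem cyc3_tail_mem {X : Subgroup (Perm (Fin (n + 1)))}
    (h : ∀ i (hi : i + 2 ≤ n),
      cyc3 (⟨i, by omega⟩ : Fin (n + 1)) ⟨i + 1, by omega⟩ ⟨i + 2, by omega⟩ ∈ X) (j : ℕ) :
    ∀ k, k + j = n → 1 ≤ j → altOn {l : Fin (n + 1) | k ≤ (l : ℕ)} ≤ X := by
  induction j with
  | zero => omega
  | succ j ih =>
    intro k hk _
    rcases Nat.eq_zero_or_pos j with rfl | hj
    · refine GKKL.altOn_le_of_cyc3 (c := (⟨k, by omega⟩ : Fin (n + 1))) (e := ⟨k + 1, by omega⟩)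
        (Fin.ne_of_val_ne (by simp)) fun t ht htc hte => ?_
      have h1 := Fin.val_ne_of_ne htc
      have h2 := Fin.val_ne_of_ne hte
      simp only [Set.mem_setOf_eq] at ht h1 h2
      omega
    refine GKKL.altOn_le_of_cyc3 (c := (⟨k + 1, by omega⟩ : Fin (n + 1))) (e := ⟨k + 2, by omega⟩)
      (Fin.ne_of_val_ne (by simp)) fun t ht htc hte => ?_
    have h1 := Fin.val_ne_of_ne htc
    have h2 := Fin.val_ne_of_ne hte
    simp only [Set.mem_setOf_eq] at ht h1 h2
    by_cases htk : (t : ℕ) = k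
    · rw [show t = ⟨k, by omega⟩ from Fin.ext htk]
      exact h k (by omega)
    · exact ih (k + 1) (by omega) hj (GKKL.cyc3_mem htc (Fin.ne_of_val_ne (by simp))
        (show k + 1 ≤ (t : ℕ) by omega) (show k + 1 ≤ k + 1 from le_rfl)
        (show k + 1 ≤ k + 2 by omega))

namespace Seed

variable (D : Seed F q n d 2 W)

/-- The projection together with the identity. -/
def graph : W →* W × Sug (n + 1) F q := (MonoidHom.id W).prod D.π

theorem graph_apply (x : W) : D.graph x = (x, D.π x) := rfl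

/-- The Phan data of the amalgam. -/
def pdata (hq : 3 ≤ q) (hd : d + 3 ≤ n + 1) : PData F q n W where
  hF := D.hF
  hq := hq
  two_le := by omega
  GU i := (D.U (pairT n i)).map D.graph
  GU_mem i hi := by
    rintro _ ⟨y, hy, rfl⟩
    exact D.π_U hy
  GU_lift i hi g hg := by
    obtain ⟨y, hy, hye⟩ := D.U_surj (card_pairT hi) hg
    exact ⟨_, ⟨y, hy, rfl⟩, hye⟩
  far i j hij hj := by
    rintro _ ⟨x, hx, rfl⟩ _ ⟨y, hy, rfl⟩
    exact (D.commute_U (card_pairT (by omega)) (card_pairT hj) (disjoint_pairT hij) hx hy).map _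
  adj i hi := by
    intro x hx h1
    have hsub : pairT n i ∪ pairT n (i + 1) ⊆ tripT n i := fun l hl => by
      simp only [Finset.mem_union, mem_pairT] at hl
      simp only [tripT, Finset.mem_filter, Finset.mem_univ, true_and]
      omega
    obtain ⟨S, hS1, -, hS3⟩ := Finset.exists_subsuperset_card_eq (n := n + 1 - d)
      (Finset.subset_univ (tripT n i)) (by
        refine le_trans ?_ (show 3 ≤ n + 1 - d by omega)
        refine le_trans (Finset.card_le_card (t := {(⟨i, by omega⟩ : Fin (n + 1)),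
          ⟨i + 1, by omega⟩, ⟨i + 2, by omega⟩}) fun l hl => ?_) Finset.card_le_three
        simp only [tripT, Finset.mem_filter] at hl
        simp only [Finset.mem_insert, Finset.mem_singleton, Fin.ext_iff]
        omega) (by rw [Finset.card_univ, Fintype.card_fin]; omega)
    obtain ⟨τ, hτ⟩ := exists_even_image (S := tailT n d) (T := S)
      (by rw [card_tailT d (by omega), hS3]) (by rw [card_tailT d (by omega)]; omega)
    have hle : (D.U (pairT n i)).map D.graph ⊔ (D.U (pairT n (i + 1))).map D.graph ≤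
        (D.C τ).map D.graph :=
      sup_le (Subgroup.map_mono (D.U_le_C (card_pairT (by omega))
          (hτ ▸ (Finset.subset_union_left.trans hsub).trans hS1)))
        (Subgroup.map_mono (D.U_le_C (card_pairT hi)
          (hτ ▸ (Finset.subset_union_right.trans hsub).trans hS1)))
    obtain ⟨y, hy, rfl⟩ := hle hx
    rw [D.C_inj hy h1, map_one]

/-- For pairs the amalgam is faithful and covers the unitary group. -/
theorem bijective_pairs (hq : 3 ≤ q) (hb : (4 ≤ q ∧ d + 3 = n + 1) ∨ d + 4 = n + 1) :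
    Function.Bijective D.π := by
  have hd : d + 3 ≤ n + 1 := by omega
  set X := D.pdata hq hd
  have hgraph : ∀ k, X.Lk k ≤ D.graph.range := fun k =>
    (Subgroup.closure_le _).2 fun y ⟨i, _, _, ⟨z, _, hz⟩⟩ => ⟨z, hz⟩
  have hIB : X.Lk d ≤ D.IB.map D.graph := (Subgroup.closure_le _).2 fun y ⟨i, hi, hin, hy⟩ =>
    Subgroup.map_mono (D.U_le_IB (card_pairT hin) (pairT_subset_tailT hi)) hy
  have hbase : 3 ≤ n → 4 ≤ q ∨ (q = 3 ∧ ∀ x ∈ X.Lk (n - 3), x.2 = 1 → x ^ 3 = 1 →
      (∀ h ∈ X.Lk (n - 2), Commute x h) → x = 1) := fun h3 => by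
    by_cases hq4 : 4 ≤ q
    · exact Or.inl hq4
    obtain rfl : d = n - 3 := by omega
    refine Or.inr ⟨by omega, fun x hx h1 _ _ => ?_⟩
    obtain ⟨y, hy, rfl⟩ := hIB hx
    rw [D.IB_inj y hy h1, map_one]
  obtain ⟨Φ, hΦ⟩ := X.exists_hom hbase
  set Eq := MonoidHom.eqLocus (Φ.comp D.π) (MonoidHom.id W)
  have hU : ∀ i, i < n → D.U (pairT n i) ≤ Eq := fun i hi x hx => hΦ i hi _ ⟨x, hx, rfl⟩
  have gen : D.IB ≤ Subgroup.closure {x | ∃ i, d ≤ i ∧ i < n ∧ x ∈ D.U (pairT n i)} := by
    intro x hx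
    have hg := X.good_all hbase (n - d - 1) d (by omega) (by omega)
    obtain ⟨y, hy, hye⟩ := hg.surj (D.π x) (D.IB_mem x hx)
    have hle : X.Lk d ≤ (Subgroup.closure {x | ∃ i, d ≤ i ∧ i < n ∧ x ∈ D.U (pairT n i)}).map
        D.graph := (Subgroup.closure_le _).2 fun y ⟨i, hi, hin, ⟨z, hz, hze⟩⟩ =>
      ⟨z, Subgroup.subset_closure ⟨i, hi, hin, hz⟩, hze⟩
    obtain ⟨z, hz, rfl⟩ := hle hy
    obtain ⟨z', hz', hze⟩ := hIB hy
    obtain rfl : z' = z := congrArg Prod.fst hze
    have : z' = x := inv_mul_eq_one.1 (D.IB_inj _ (mul_mem (inv_mem hz') hx)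
      (by rw [map_mul, map_inv, show D.π z' = D.π x from hye, inv_mul_cancel]))
    exact this ▸ hz
  have hconj : ∀ τ : alternatingGroup (Fin (n + 1)),
      (∀ j, d ≤ j → j < n → ∃ j' < n, (pairT n j).image τ.1 = pairT n j') →
      ∀ x ∈ D.IB, D.P τ * x * (D.P τ)⁻¹ ∈ Eq := by
    intro τ hτ x hx
    suffices h : Subgroup.closure {x | ∃ i, d ≤ i ∧ i < n ∧ x ∈ D.U (pairT n i)} ≤
        Eq.comap (MulAut.conj (D.P τ)).toMonoidHom from h (gen hx)
    refine (Subgroup.closure_le _).2 fun y ⟨i, hi, hin, hy⟩ => ?_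
    obtain ⟨j', hj', he⟩ := hτ i hi hin
    exact hU j' hj' (he ▸ D.conj_U τ (card_pairT hin) hy)
  have htop : Eq = ⊤ := by
    rw [eq_top_iff, ← D.gen, sup_le_iff]
    constructor
    · rintro _ ⟨σ, rfl⟩
      set X' := (Eq.comap D.P).map (alternatingGroup (Fin (n + 1))).subtype
      have h3 : ∀ i (hi : i + 2 ≤ n),
          cyc3 (⟨i, by omega⟩ : Fin (n + 1)) ⟨i + 1, by omega⟩ ⟨i + 2, by omega⟩ ∈ X' := by
        intro i hi
        set a : Fin (n + 1) := ⟨i, by omega⟩
        set b : Fin (n + 1) := ⟨i + 1, by omega⟩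
        set c : Fin (n + 1) := ⟨i + 2, by omega⟩
        have hc : cyc3 a b c ∈ alternatingGroup (Fin (n + 1)) := Perm.mem_alternatingGroup.2
          (GKKL.cyc3_mem (T := Set.univ) (Fin.ne_of_val_ne (by simp [a, b]))
            (Fin.ne_of_val_ne (by simp [b, c])) trivial trivial trivial).1
        refine ⟨⟨_, hc⟩, ?_, rfl⟩
        obtain ⟨τ, hτ, hτp⟩ := exists_shift (d := d) (by omega) hi
        show D.P ⟨_, hc⟩ ∈ Eq
        have h0 : τ⁻¹ * ⟨_, hc⟩ * τ ∈ altIn (tailT n d) := fun l hl => by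
          have hl' : τ.1 l ∉ tripT n i := fun h => hl (by
            obtain ⟨y, hy, e⟩ := Finset.mem_image.1 (hτ h)
            exact τ.1.injective e ▸ hy)
          simp only [tripT, Finset.mem_filter, Finset.mem_univ, true_and] at hl'
          show (τ.1⁻¹ * cyc3 a b c * τ.1) l = l
          rw [Perm.mul_apply, Perm.mul_apply, GKKL.cyc3, Perm.mul_apply]
          have e1 : swap b c (τ.1 l) = τ.1 l := swap_apply_of_ne_of_ne
            (Fin.ne_of_val_ne (show ((τ.1 l : Fin (n + 1)) : ℕ) ≠ i + 1 by omega))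
            (Fin.ne_of_val_ne (show ((τ.1 l : Fin (n + 1)) : ℕ) ≠ i + 2 by omega))
          have e2 : swap a b (τ.1 l) = τ.1 l := swap_apply_of_ne_of_ne
            (Fin.ne_of_val_ne (show ((τ.1 l : Fin (n + 1)) : ℕ) ≠ i by omega))
            (Fin.ne_of_val_ne (show ((τ.1 l : Fin (n + 1)) : ℕ) ≠ i + 1 by omega))
          rw [e1, e2]
          exact τ.1.symm_apply_apply l
        have := hconj τ hτp _ (D.hA _ h0)
        rwa [← map_inv, ← map_mul, ← map_mul, show τ * (τ⁻¹ * ⟨_, hc⟩ * τ) * τ⁻¹ =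
          (⟨_, hc⟩ : alternatingGroup (Fin (n + 1))) by group] at this
      have hall := cyc3_tail_mem h3 n 0 (by omega) (by omega)
        ⟨Perm.mem_alternatingGroup.1 σ.2, fun x hx => absurd (Nat.zero_le _) hx⟩
      obtain ⟨σ', hσ', e⟩ := hall
      obtain rfl : σ' = σ := Subtype.ext e
      exact hσ'
    · intro x hx
      have := hconj 1 (fun j _ hj => ⟨j, hj, by simp⟩) x hx
      simpa using this
  refine ⟨(injective_iff_map_eq_one D.π).2 fun x hx => ?_, fun g => ?_⟩
  · have : Φ (D.π x) = x := (htop ▸ Subgroup.mem_top x : x ∈ Eq)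
    rw [← this, hx, map_one]
  · have hg := X.good_all hbase (n - 1) 0 (by omega) (by omega)
    obtain ⟨x, hx, hxe⟩ := hg.surj g (by rw [fixT_tail_zero]; exact Subgroup.mem_top g)
    obtain ⟨z, rfl⟩ := hgraph 0 hx
    exact ⟨z, hxe⟩

end Seed

end

end Cfsg.Agent.SUPres
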